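import Cfsg.Agent.H860.JM.Cj
import Mathlib.Data.Set.Card
import Mathlib.Tactic.Group

/-!
# (F18) three commuting 2B elements whose points have trivial intersection: the abstract argument

`R1`, `Z1`, `Z3`, `Be`: what is needed from the concrete geometry of `J4`.
`f18_abs`: (F18) from these and the facts (F1), (F3) to (F7), (F9), (F13).
-/

set_option autoImplicit false

namespace Cfsg.Agent.H705.JM.BadAbs

open Cfsg.Agent.H860.JM

variable {G : Type*} [Group G] {Γ : Geom G}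

/-- (R1) a line `D` and a 2A element `x` in a common point -/
def R1 (Γ : Geom G) : Prop := ∀ (D P : Subgroup G) (x : G), Γ.Ln D → Γ.Pt P → D ≤ P → x ∈ P →
  Γ.A x → 4 ≤ {v | v ∈ D ∧ (v = 1 ∨ Γ.A (v * x))}.ncard

/-- (Z1) two commuting 2B elements whose points have an intersection of order 2 -/
def Z1 (Γ : Geom G) : Prop := ∀ (a b z : G) (P P' : Subgroup G), Γ.B a → Γ.B b → a * b = b * a →
  Γ.Pt P → Γ.Pt P' → a ∈ P → b ∈ P' → P ≠ P' → (∀ x, x ∈ P ⊓ P' ↔ x = 1 ∨ x = z) →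
  Γ.A (a * b) ∧ KB Γ P (a * b) ∧ IsX Γ P (a * b) z ∧ Γ.B (a * z)

/-- (Z3) the point of a 2B element `w w'` where `w ∈ P` and `w'` is of kind B -/
def Z3 (Γ : Geom G) : Prop := ∀ (w w' z : G) (P P' : Subgroup G), Γ.Pt P → KB Γ P w' →
  IsX Γ P w' z → w ∈ P → w * w' = w' * w → Γ.B (w * w') → Γ.Pt P' → w * w' ∈ P' →
  ∀ x, x ∈ P ⊓ P' ↔ x = 1 ∨ x = z

/-- (Be) the case where the three elements normalize a point `P` and are equal modulo `P` -/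
def Be (Γ : Geom G) : Prop := ∀ (a b c : G) (Pa Pb Pc P : Subgroup G), Γ.B a → Γ.B b → Γ.B c →
  a * b = b * a → a * c = c * a → b * c = c * b → Γ.Pt Pa → Γ.Pt Pb → Γ.Pt Pc → a ∈ Pa → b ∈ Pb →
  c ∈ Pc → Pa ⊓ Pb ⊓ Pc = ⊥ → Γ.Pt P → a ∈ Subgroup.normalizer (P : Set G) → a ∉ P →
  a * b ∈ P → a * c ∈ P → ∃ K : Subgroup G, K ≤ P ∧ 32 ≤ Nat.card K ∧ (∃ t ∈ K, Γ.B t) ∧
    ∀ x ∈ K, ∀ y ∈ Subgroup.normalizer (P : Set G), y * a = a * y → y * b = b * y →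
      y * c = c * y → x * y = y * x

theorem tyA_symm {z w : G} (h : TyA Γ z w) : TyA Γ w z := by
  obtain ⟨D, h1, h2, h3⟩ := h
  exact ⟨D, h1, h3, h2⟩

/-- the hypotheses -/
structure Hy (Γ : Geom G) : Prop where
  f1 : F1 Γ
  f3 : F3 Γ
  f4 : F4 Γ
  f5 : F5 Γ
  f6 : F6 Γ
  f7 : F7 Γ
  kind : ∀ P w, Γ.Pt P → Act Γ P w → KA Γ P w ∨ KB Γ P w
  f13 : F13 Γ
  r1 : R1 Γ
  z1 : Z1 Γ
  z3 : Z3 Γ
  be : Be Γ

namespace Hy

variable (H : Hy Γ)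
include H

theorem pt_uniq {t : G} {P P' : Subgroup G} (ht : Γ.B t) (hP : Γ.Pt P) (hP' : Γ.Pt P')
    (h : t ∈ P) (h' : t ∈ P') : P = P' := by
  obtain ⟨Q, -, -, h1, -⟩ := H.f4 t ht
  rw [h1 P hP h, h1 P' hP' h']

theorem cent_norm {t y : G} {P : Subgroup G} (ht : Γ.B t) (hP : Γ.Pt P) (h : t ∈ P)
    (hy : y * t = t * y) : y ∈ Subgroup.normalizer (P : Set G) := by
  obtain ⟨Q, -, -, h1, h2⟩ := H.f4 t ht
  rw [h1 P hP h]
  exact h2 (Subgroup.mem_centralizer_singleton_iff.2 hy)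

theorem A_of_mem {x : G} {P P' : Subgroup G} (hP : Γ.Pt P) (hP' : Γ.Pt P') (hne : P ≠ P')
    (hx : x ∈ P) (hx' : x ∈ P') (hx1 : x ≠ 1) : Γ.A x := by
  rcases H.f5 P P' hP hP' hne with h | ⟨z, hz, h⟩ | h
  · exfalso
    apply hx1
    have h1 : x ∈ P ⊓ P' := ⟨hx, hx'⟩
    rwa [h, Subgroup.mem_bot] at h1
  · rcases (h x).1 ⟨hx, hx'⟩ with h1 | h1
    · exact absurd h1 hx1
    · rw [h1]; exact hz
  · exact H.f6.pure _ h x ⟨hx, hx'⟩ hx1

theorem ln_of_two {x y : G} {P P' : Subgroup G} (hP : Γ.Pt P) (hP' : Γ.Pt P') (hne : P ≠ P')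
    (hx : x ∈ P) (hx' : x ∈ P') (hx1 : x ≠ 1) (hy : y ∈ P) (hy' : y ∈ P') (hy1 : y ≠ 1)
    (hxy : x ≠ y) : Γ.Ln (P ⊓ P') := by
  rcases H.f5 P P' hP hP' hne with h | ⟨z, -, h⟩ | h
  · exfalso
    apply hx1
    have h1 : x ∈ P ⊓ P' := ⟨hx, hx'⟩
    rwa [h, Subgroup.mem_bot] at h1
  · exfalso
    rcases (h x).1 ⟨hx, hx'⟩ with h1 | h1
    · exact hx1 h1
    · rcases (h y).1 ⟨hy, hy'⟩ with h2 | h2
      · exact hy1 h2
      · exact hxy (h1.trans h2.symm)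
  · exact h

theorem pt_eq_of_two {x y : G} {P P' : Subgroup G} (hP : Γ.Pt P) (hP' : Γ.Pt P')
    (hx : x ∈ P) (hx' : x ∈ P') (hx1 : x ≠ 1) (hy : y ∈ P) (hy' : y ∈ P') (hy1 : y ≠ 1)
    (hxy : x ≠ y) (hT : ¬ TyA Γ x y) : P' = P := by
  by_contra hne
  exact hT ⟨_, H.ln_of_two hP' hP hne hx' hx hx1 hy' hy hy1 hxy, ⟨hx', hx⟩, ⟨hy', hy⟩⟩

theorem A_of_tyA {x y : G} (hT : TyA Γ x y) (hxy : x ≠ y) (hyy : y * y = 1) : Γ.A (x * y) := by
  obtain ⟨D, hD, hx, hy⟩ := hT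
  refine H.f6.pure D hD _ (D.mul_mem hx hy) fun h => hxy ?_
  have h1 : x = x * (y * y) := by rw [hyy, mul_one]
  rw [h1, ← mul_assoc, h, one_mul]

/-- an element commuting with `x` and `y` normalizes the only point containing `x` and `y` -/
theorem norm_of_two {x y u : G} {P : Subgroup G} (hP : Γ.Pt P)
    (hx : x ∈ P) (hx1 : x ≠ 1) (hy : y ∈ P) (hy1 : y ≠ 1)
    (hxy : x ≠ y) (hT : ¬ TyA Γ x y) (hux : u * x = x * u) (huy : u * y = y * u) :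
    u ∈ Subgroup.normalizer (P : Set G) := by
  rw [← cj_eq_iff]
  refine H.pt_eq_of_two hP (H.f1.Pt_conj u P hP) hx ?_ hx1 hy ?_ hy1 hxy hT
  · rw [mem_cj]
    have e : u⁻¹ * x * u = x := by rw [mul_assoc, ← hux, inv_mul_cancel_left]
    rw [e]; exact hx
  · rw [mem_cj]
    have e : u⁻¹ * y * u = y := by rw [mul_assoc, ← huy, inv_mul_cancel_left]
    rw [e]; exact hy

/-- an element of order 2 of type a with `x` and `y` is in the only point containing them -/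
theorem key {x y u : G} {P : Subgroup G} (hP : Γ.Pt P)
    (hx : x ∈ P) (hxA : Γ.A x) (hy : y ∈ P) (hyA : Γ.A y)
    (hxy : x ≠ y) (hT : ¬ TyA Γ x y) (huA : Γ.A u) (hux : u * x = x * u) (huy : u * y = y * u)
    (hTx : TyA Γ x u) (hTy : TyA Γ y u) : u ∈ P := by
  by_contra hu
  have hx1 := (H.f1.A_inv x hxA).1
  have hy1 := (H.f1.A_inv y hyA).1
  have huu := (H.f1.A_inv u huA).2
  have hact : Act Γ P u := ⟨H.norm_of_two hP hx hx1 hy hy1 hxy hT hux huy, hu, huA⟩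
  have hxu : x ≠ u := fun h => hu (h ▸ hx)
  have hyu : y ≠ u := fun h => hu (h ▸ hy)
  have hFx : x ∈ Fs Γ P u := ⟨hx, hux.symm, Or.inr ⟨hxA, H.A_of_tyA hTx hxu huu⟩⟩
  have hFy : y ∈ Fs Γ P u := ⟨hy, huy.symm, Or.inr ⟨hyA, H.A_of_tyA hTy hyu huu⟩⟩
  rcases H.kind P u hP hact with h | h
  · obtain ⟨P', h1, h2, h3, h4⟩ := h.pt x hFx y hFy
    rw [H.pt_eq_of_two hP h1 hx h2 hx1 hy h3 hy1 hxy hT] at h4
    exact hu h4
  · obtain ⟨v, -, h1, -⟩ := h.ex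
    exact hxy ((h1 x ⟨hFx, hx1, hTx⟩).trans (h1 y ⟨hFy, hy1, hTy⟩).symm)

/-- the points of commuting 2B elements meet -/
theorem meet {a b : G} {P P' : Subgroup G} (ha : Γ.B a) (hb : Γ.B b) (hab : a * b = b * a)
    (hP : Γ.Pt P) (hP' : Γ.Pt P') (haP : a ∈ P) (hbP : b ∈ P') : P ⊓ P' ≠ ⊥ :=
  H.f13 P P' b hP hP' (H.cent_norm ha hP haP hab.symm) hb hbP

/-- a fixed element -/
theorem exists_comm {a : G} {P P' : Subgroup G} (hP : Γ.Pt P)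
    (haP : a ∈ Subgroup.normalizer (P : Set G)) (haP' : a ∈ Subgroup.normalizer (P' : Set G))
    (haa : a * a = 1) (h : P ⊓ P' ≠ ⊥) : ∃ x ∈ P ⊓ P', x ≠ 1 ∧ x * a = a * x := by
  obtain ⟨⟨y, hy⟩, hy1'⟩ := Subgroup.ne_bot_iff_exists_ne_one.1 h
  have hy1 : y ≠ 1 := fun h => hy1' (Subtype.ext h)
  have hai : a⁻¹ = a := inv_eq_of_mul_eq_one_left haa
  have hy' : a * y * a⁻¹ ∈ P ⊓ P' :=
    ⟨(Subgroup.mem_normalizer_iff.1 haP y).1 hy.1, (Subgroup.mem_normalizer_iff.1 haP' y).1 hy.2⟩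
  by_cases hc : a * y * a⁻¹ = y
  · refine ⟨y, hy, hy1, ?_⟩
    rw [mul_inv_eq_iff_eq_mul] at hc
    exact hc.symm
  · have hel := H.f3.el P hP
    have hyy := hel.sq y hy.1
    refine ⟨y * (a * y * a⁻¹), (P ⊓ P').mul_mem hy hy', ?_, ?_⟩
    · intro h1
      apply hc
      calc a * y * a⁻¹ = y * y * (a * y * a⁻¹) := by rw [hyy, one_mul]
        _ = y * (y * (a * y * a⁻¹)) := by group
        _ = y := by rw [h1, mul_one]
    · have h2 := hel.comm y hy.1 _ hy'.1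
      rw [hai] at h2 ⊢
      calc y * (a * y * a) * a = y * a * y * (a * a) := by group
        _ = y * a * y := by rw [haa, mul_one]
        _ = a * a * (y * a * y) := by rw [haa, one_mul]
        _ = a * ((a * y * a) * y) := by group
        _ = a * (y * (a * y * a)) := by rw [h2]

omit H in
/-- an element normalizing `P` and `P'` centralizes `P ⊓ P'` of order 2 -/
theorem comm_of_pair {y z : G} {P P' : Subgroup G} (hz1 : z ≠ 1)
    (h : ∀ x, x ∈ P ⊓ P' ↔ x = 1 ∨ x = z) (hy : y ∈ Subgroup.normalizer (P : Set G))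
    (hy' : y ∈ Subgroup.normalizer (P' : Set G)) : y * z = z * y := by
  have hz := (h z).2 (Or.inr rfl)
  have h1 : y * z * y⁻¹ ∈ P ⊓ P' :=
    ⟨(Subgroup.mem_normalizer_iff.1 hy z).1 hz.1, (Subgroup.mem_normalizer_iff.1 hy' z).1 hz.2⟩
  rcases (h _).1 h1 with h2 | h2
  · exfalso
    apply hz1
    calc z = y⁻¹ * (y * z * y⁻¹) * y := by group
      _ = 1 := by rw [h2]; group
  · rwa [mul_inv_eq_iff_eq_mul] at h2

theorem fs_of_line {x v : G} {P P' : Subgroup G} (hP' : Γ.Pt P') (hD : Γ.Ln (P ⊓ P'))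
    (hx : x ∈ P') (hv : v ∈ P ⊓ P') (hv2 : v = 1 ∨ Γ.A (v * x)) : v ∈ Fs Γ P x := by
  refine ⟨hv.1, (H.f3.el P' hP').comm v hv.2 x hx, ?_⟩
  by_cases h1 : v = 1
  · exact Or.inl h1
  · refine Or.inr ⟨H.f6.pure _ hD v hv h1, ?_⟩
    rcases hv2 with h2 | h2
    · exact absurd h2 h1
    · exact h2

/-- one half of case N, kind B -/
theorem caseN_aux [Finite G] {x y : G} {P P' : Subgroup G} (hP : Γ.Pt P) (hP' : Γ.Pt P')
    (hD : Γ.Ln (P ⊓ P')) (hx : x ∈ P') (hxA : Γ.A x) (hxP : x ∉ P)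
    (hX : IsX Γ P x y) (huniq : ∀ v, IsX Γ P x v → v = y)
    (hT : ∀ v ∈ Fs Γ P x, TyA Γ y v) : y ∈ P' := by
  have h4 := H.r1 (P ⊓ P') P' x hD hP' inf_le_right hx hxA
  set S : Set G := {v | v ∈ P ⊓ P' ∧ (v = 1 ∨ Γ.A (v * x))} with hS
  have h5 : ∃ v ∈ S, v ∉ ({1, y} : Set G) := by
    by_contra hcon
    push Not at hcon
    have h6 := Set.ncard_le_ncard (s := S) (t := ({1, y} : Set G)) hcon (Set.toFinite _)
    have h7 := Set.ncard_insert_le (1 : G) {y}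
    rw [Set.ncard_singleton] at h7
    omega
  obtain ⟨v, hv, hv1⟩ := h5
  rw [Set.mem_insert_iff, Set.mem_singleton_iff, not_or] at hv1
  have hvF : v ∈ Fs Γ P x := H.fs_of_line hP' hD hx hv.1 hv.2
  have hvA : Γ.A v := H.f6.pure _ hD v hv.1 hv1.1
  have hnT : ¬ TyA Γ v x := fun h => hv1.2 (huniq v ⟨hvF, hv1.1, h⟩)
  have hvx : v ≠ x := fun h => hxP (h ▸ hv.1.1)
  have hyF := hX.mem
  have hyA : Γ.A y := by
    rcases hyF.2.2 with h | h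
    · exact absurd h hX.ne
    · exact h.1
  refine H.key hP' hv.1.2 hvA hx hxA hvx hnT hyA ?_ ?_ ?_ ?_
  · exact (H.f3.el P hP).comm y hyF.1 v hv.1.1
  · exact hyF.2.1
  · exact tyA_symm (hT v hvF)
  · exact tyA_symm hX.tyA

/-- **case N**: no element is in two pairs whose points meet in a line -/
theorem caseN [Finite G] {a b c : G} {Pa Pb Pc : Subgroup G} (ha : Γ.B a) (hb : Γ.B b)
    (hc : Γ.B c) (hab : a * b = b * a) (hac : a * c = c * a) (hbc : b * c = c * b)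
    (hPa : Γ.Pt Pa) (hPb : Γ.Pt Pb) (hPc : Γ.Pt Pc) (haP : a ∈ Pa) (hbP : b ∈ Pb) (hcP : c ∈ Pc)
    (h0 : Pa ⊓ Pb ⊓ Pc = ⊥) (hne : Pb ≠ Pc) (h1 : Γ.Ln (Pa ⊓ Pb)) (h2 : Γ.Ln (Pa ⊓ Pc)) :
    False := by
  obtain ⟨x, hx, hx1, hxa⟩ := H.exists_comm hPb (H.cent_norm hb hPb hbP hab)
    (H.cent_norm hc hPc hcP hac) (H.f1.B_inv a ha).2 (H.meet hb hc hbc hPb hPc hbP hcP)
  have h0' : ∀ u, u ∈ Pa → u ∈ Pb → u ∈ Pc → u = 1 := by
    intro u h1 h2 h3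
    have h4 : u ∈ Pa ⊓ Pb ⊓ Pc := ⟨⟨h1, h2⟩, h3⟩
    rwa [h0, Subgroup.mem_bot] at h4
  have hxA : Γ.A x := H.A_of_mem hPb hPc hne hx.1 hx.2 hx1
  have hxP : x ∉ Pa := fun h => hx1 (h0' x h hx.1 hx.2)
  have hact : Act Γ Pa x := ⟨H.cent_norm ha hPa haP hxa, hxP, hxA⟩
  rcases H.kind Pa x hPa hact with hk | hk
  · -- kind A
    have h4 := H.r1 (Pa ⊓ Pb) Pb x h1 hPb inf_le_right hx.1 hxA
    have h5 := H.r1 (Pa ⊓ Pc) Pc x h2 hPc inf_le_right hx.2 hxA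
    set S : Set G := {v | v ∈ Pa ⊓ Pb ∧ (v = 1 ∨ Γ.A (v * x))} with hS
    set T : Set G := {v | v ∈ Pa ⊓ Pc ∧ (v = 1 ∨ Γ.A (v * x))} with hT
    have h6 : (S ×ˢ T).ncard ≤ (Fs Γ Pa x).ncard := by
      refine Set.ncard_le_ncard_of_injOn (fun p => p.1 * p.2) ?_ ?_ (Set.toFinite _)
      · rintro ⟨u, v⟩ ⟨hu, hv⟩
        exact hk.mul u (H.fs_of_line hPb h1 hx.1 hu.1 hu.2) v (H.fs_of_line hPc h2 hx.2 hv.1 hv.2)
      · rintro ⟨u, v⟩ ⟨hu, hv⟩ ⟨u', v'⟩ ⟨hu', hv'⟩ he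
        have he' : u * v = u' * v' := he
        have e1 : u'⁻¹ * u = v' * v⁻¹ := by
          rw [inv_mul_eq_iff_eq_mul, ← mul_assoc, ← he', mul_inv_cancel_right]
        have e2 : u'⁻¹ * u = 1 := by
          refine h0' _ (Pa.mul_mem (Pa.inv_mem hu'.1.1) hu.1.1)
            (Pb.mul_mem (Pb.inv_mem hu'.1.2) hu.1.2) ?_
          rw [e1]
          exact Pc.mul_mem hv'.1.2 (Pc.inv_mem hv.1.2)
        have e3 : u = u' := (inv_mul_eq_one.1 e2).symm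
        rw [e3] at he'
        exact Prod.ext e3 (mul_left_cancel he')
    rw [Set.ncard_prod, hk.card] at h6
    have h7 := Nat.mul_le_mul h4 h5
    omega
  · -- kind B
    obtain ⟨y, hX, huniq, hT⟩ := hk.ex
    exact hX.ne (h0' y hX.mem.1 (H.caseN_aux hPa hPb h1 hx.1 hxA hxP hX huniq hT)
      (H.caseN_aux hPa hPc h2 hx.2 hxA hxP hX huniq hT))

/-- the data of a pair with intersection of order 2 -/
theorem pair_data {a b c z z' : G} {Pa Pb Pc : Subgroup G} (ha : Γ.B a) (hb : Γ.B b)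
    (hc : Γ.B c) (hab : a * b = b * a) (hac : a * c = c * a) (hbc : b * c = c * b)
    (hPa : Γ.Pt Pa) (hPb : Γ.Pt Pb) (hPc : Γ.Pt Pc) (haP : a ∈ Pa) (hbP : b ∈ Pb) (hcP : c ∈ Pc)
    (hne : Pa ≠ Pb) (hne' : Pa ≠ Pc) (hz1 : z ≠ 1) (hz1' : z' ≠ 1) (hzz : z ≠ z')
    (h1 : ∀ x, x ∈ Pa ⊓ Pb ↔ x = 1 ∨ x = z) (h2 : ∀ x, x ∈ Pa ⊓ Pc ↔ x = 1 ∨ x = z') :
    ∃ P0, Γ.Pt P0 ∧ z' ∈ P0 ∧ a * b ∈ P0 ∧ z ∈ P0 ∧ ¬ TyA Γ z' (a * b) ∧ Γ.A (a * b) ∧
      Γ.A z' ∧ z' ≠ a * b ∧ Γ.A z ∧ Γ.A (z' * (a * b)) ∧ z' * (a * b) = a * b * z' ∧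
      IsX Γ Pa (a * b) z := by
  have hz := (h1 z).2 (Or.inr rfl)
  have hz' := (h2 z').2 (Or.inr rfl)
  have hzA : Γ.A z := H.A_of_mem hPa hPb hne hz.1 hz.2 hz1
  have hzA' : Γ.A z' := H.A_of_mem hPa hPc hne' hz'.1 hz'.2 hz1'
  obtain ⟨hA, hKB, hX, -⟩ := H.z1 a b z Pa Pb ha hb hab hPa hPb haP hbP hne h1
  obtain ⟨-, -, -, hB⟩ := H.z1 a c z' Pa Pc ha hc hac hPa hPc haP hcP hne' h2
  have hbz : b * z' = z' * b := comm_of_pair hz1' h2 (H.cent_norm ha hPa haP hab.symm)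
    (H.cent_norm hc hPc hcP hbc)
  have haz : a * z' = z' * a := (H.f3.el Pa hPa).comm a haP z' hz'.1
  have hc1 : a * z' * b = b * (a * z') := by
    rw [mul_assoc, ← hbz, ← mul_assoc, hab, mul_assoc]
  obtain ⟨hA2, -, -, -⟩ := H.z1 (a * z') b z Pa Pb hB hb hc1 hPa hPb (Pa.mul_mem haP hz'.1) hbP
    hne h1
  have e1 : a * z' * b = z' * (a * b) := by rw [haz, mul_assoc]
  have e2 : z' * (a * b) = a * b * z' := by rw [← e1, mul_assoc, ← hbz, mul_assoc]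
  rw [e1] at hA2
  have hF : z' ∈ Fs Γ Pa (a * b) := ⟨hz'.1, e2, Or.inr ⟨hzA', hA2⟩⟩
  obtain ⟨x0, hX0, huniq, hT⟩ := hKB.ex
  have hx0 := huniq z hX
  subst hx0
  have hnT : ¬ TyA Γ z' (a * b) := fun h => hzz (huniq z' ⟨hF, hz1', h⟩).symm
  have hwP : a * b ∉ Pa := by
    intro h
    have h3 : b ∈ Pa := by
      have h4 := Pa.mul_mem (Pa.inv_mem haP) h
      rwa [inv_mul_cancel_left] at h4
    exact hne (H.pt_uniq hb hPa hPb h3 hbP)
  have hzw : z' ≠ a * b := fun h => hwP (h ▸ hz'.1)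
  obtain ⟨P0, hP0, h3, h4⟩ := H.f7 z' (a * b) hzA' hA e2 hA2
  refine ⟨P0, hP0, h3, h4, ?_, hnT, hA, hzA', hzw, hzA, hA2, e2, hX⟩
  refine H.key hP0 h3 hzA' h4 hA hzw hnT hzA ?_ ?_ (tyA_symm (hT z' hF)) (tyA_symm hX.tyA)
  · exact (H.f3.el Pa hPa).comm z hz.1 z' hz'.1
  · exact hX.mem.2.1

/-- the main case -/
theorem main {a b c z z' : G} {Pa Pb Pc : Subgroup G} (ha : Γ.B a) (hb : Γ.B b)
    (hc : Γ.B c) (hab : a * b = b * a) (hac : a * c = c * a) (hbc : b * c = c * b)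
    (hPa : Γ.Pt Pa) (hPb : Γ.Pt Pb) (hPc : Γ.Pt Pc) (haP : a ∈ Pa) (hbP : b ∈ Pb) (hcP : c ∈ Pc)
    (h0 : Pa ⊓ Pb ⊓ Pc = ⊥)
    (hne : Pa ≠ Pb) (hne' : Pa ≠ Pc) (hne2 : Pb ≠ Pc) (hz1 : z ≠ 1) (hz1' : z' ≠ 1)
    (h1 : ∀ x, x ∈ Pa ⊓ Pb ↔ x = 1 ∨ x = z) (h2 : ∀ x, x ∈ Pa ⊓ Pc ↔ x = 1 ∨ x = z') :
    ∃ P K : Subgroup G, Γ.Pt P ∧ K ≤ P ∧ 32 ≤ Nat.card K ∧ (∃ t ∈ K, Γ.B t) ∧
      ∀ x ∈ K, ∀ y, y * a = a * y → y * b = b * y → y * c = c * y → x * y = y * x := by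
  have hz := (h1 z).2 (Or.inr rfl)
  have hz' := (h2 z').2 (Or.inr rfl)
  have hzz : z ≠ z' := by
    intro h
    apply hz1
    have h3 : z ∈ Pa ⊓ Pb ⊓ Pc := ⟨hz, by rw [h]; exact hz'.2⟩
    rwa [h0, Subgroup.mem_bot] at h3
  have haa := (H.f1.B_inv a ha).2
  have hbb := (H.f1.B_inv b hb).2
  have hcc := (H.f1.B_inv c hc).2
  obtain ⟨P0, hP0, m1, m2, m3, nT, hA, hzA', hzw, hzA, hAz, cz, hX⟩ :=
    H.pair_data ha hb hc hab hac hbc hPa hPb hPc haP hbP hcP hne hne' hz1 hz1' hzz h1 h2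
  obtain ⟨P1, hP1, k1, k2, k3, kT, kA, -, kzw, -, kAz, kcz, kX⟩ :=
    H.pair_data ha hc hb hac hab hbc.symm hPa hPc hPb haP hcP hbP hne' hne hz1' hz1 hzz.symm h2 h1
  have hw1 : a * b ≠ 1 := (H.f1.A_inv _ hA).1
  have hw1' : a * c ≠ 1 := (H.f1.A_inv _ kA).1
  have hww : a * b * (a * c) = a * c * (a * b) := by
    calc a * b * (a * c) = a * (b * a) * c := by group
      _ = a * a * (b * c) := by rw [← hab]; group
      _ = a * a * (c * b) := by rw [hbc]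
      _ = a * (a * c) * b := by group
      _ = a * (c * a) * b := by rw [hac]
      _ = a * c * (a * b) := by group
  have hwc : a * b * (a * c) = b * c := by
    calc a * b * (a * c) = a * (b * a) * c := by group
      _ = a * a * (b * c) := by rw [← hab]; group
      _ = b * c := by rw [haa, one_mul]
  -- `a c ∈ P0`
  have hmem : a * c ∈ P0 := by
    by_contra hw'
    have hn : a * c ∈ Subgroup.normalizer (P0 : Set G) := by
      refine H.norm_of_two hP0 m1 hz1' m2 hw1 hzw nT ?_ hww.symm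
      exact kX.mem.2.1.symm
    have hact : Act Γ P0 (a * c) := ⟨hn, hw', kA⟩
    have hw0 : a * b ∉ P1 := by
      intro h
      have h3 := H.pt_eq_of_two hP0 hP1 m1 k3 hz1' m2 h hw1 hzw nT
      rw [h3] at k2
      exact hw' k2
    have hn1 : a * b ∈ Subgroup.normalizer (P1 : Set G) := by
      refine H.norm_of_two hP1 k1 hz1 k2 hw1' kzw kT ?_ hww
      exact hX.mem.2.1.symm
    have hact1 : Act Γ P1 (a * b) := ⟨hn1, hw0, hA⟩
    rcases H.kind P0 _ hP0 hact with hk | hk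
    · exact kT (hk.tyA z ⟨m3, kcz, Or.inr ⟨hzA, kAz⟩⟩)
    rcases H.kind P1 _ hP1 hact1 with hk1 | hk1
    · exact nT (hk1.tyA z' ⟨k3, cz, Or.inr ⟨hzA', hAz⟩⟩)
    have hX0 : IsX Γ P0 (a * c) z' := ⟨⟨m1, kX.mem.2.1, kX.mem.2.2⟩, hz1', kX.tyA⟩
    have hX1 : IsX Γ P1 (a * b) z := ⟨⟨k1, hX.mem.2.1, hX.mem.2.2⟩, hz1, hX.tyA⟩
    have ht1 : a * b * (a * c) ≠ 1 := by
      intro h
      rw [hwc] at h
      have h3 : b = c := by
        calc b = b * (c * c) := by rw [hcc, mul_one]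
          _ = b * c * c := by group
          _ = c := by rw [h, one_mul]
      rw [h3] at hb hbP
      exact hne2 (H.pt_uniq hb hPb hPc hbP hcP)
    have ht2 : a * b * (a * c) * (a * b * (a * c)) = 1 := by
      rw [hwc]
      calc b * c * (b * c) = b * (c * b) * c := by group
        _ = b * b * (c * c) := by rw [← hbc]; group
        _ = 1 := by rw [hbb, hcc, one_mul]
    rcases H.f1.invol _ ht1 ht2 with hA2 | hB2
    · obtain ⟨x0, -, huniq, hT⟩ := hk.ex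
      have h3 := hT (a * b) ⟨m2, hww, Or.inr ⟨hA, hA2⟩⟩
      rw [← huniq z' hX0] at h3
      exact nT h3
    · obtain ⟨Pt, hPt, htP, -, -⟩ := H.f4 _ hB2
      have h3 := H.z3 (a * b) (a * c) z' P0 Pt hP0 hk hX0 m2 hww hB2 hPt htP
      have hB3 : Γ.B (a * c * (a * b)) := by rw [← hww]; exact hB2
      have h4 := H.z3 (a * c) (a * b) z P1 Pt hP1 hk1 hX1 k2 hww.symm hB3 hPt
        (by rw [← hww]; exact htP)
      have h5 : z ∈ P1 ⊓ Pt := (h4 z).2 (Or.inr rfl)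
      rcases (h3 z).1 ⟨m3, h5.2⟩ with h6 | h6
      · exact hz1 h6
      · exact hzz h6
  -- the elements commuting with `a`, `b`, `c` normalize `P0`
  have hnorm : ∀ y, y * a = a * y → y * b = b * y → y * c = c * y →
      y ∈ Subgroup.normalizer (P0 : Set G) := by
    intro y hya hyb hyc
    refine H.norm_of_two hP0 m1 hz1' m2 hw1 hzw nT ?_ ?_
    · exact comm_of_pair hz1' h2 (H.cent_norm ha hPa haP hya) (H.cent_norm hc hPc hcP hyc)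
    · rw [← mul_assoc, hya, mul_assoc, hyb, mul_assoc]
  have haP0 : a ∉ P0 := by
    intro h
    have h3 := H.pt_uniq ha hP0 hPa h haP
    rw [h3] at m2
    have h4 : b ∈ Pa := by
      have h4 := Pa.mul_mem (Pa.inv_mem haP) m2
      rwa [inv_mul_cancel_left] at h4
    exact hne (H.pt_uniq hb hPa hPb h4 hbP)
  obtain ⟨K, h3, h4, h5, h6⟩ := H.be a b c Pa Pb Pc P0 ha hb hc hab hac hbc hPa hPb hPc haP hbP
    hcP h0 hP0 (hnorm a rfl hab hac) haP0 m2 hmem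
  exact ⟨P0, K, hP0, h3, h4, h5, fun x hx y hya hyb hyc => h6 x hx y (hnorm y hya hyb hyc) hya hyb
    hyc⟩

end Hy

/-- **(F18)** from the concrete facts -/
theorem f18_abs [Finite G] (H : Hy Γ) : F18 Γ := by
  intro a b c ha hb hc hab hac hbc Pa Pb Pc hPa hPb hPc haP hbP hcP h0
  have ha1 := (H.f1.B_inv a ha).1
  have hb1 := (H.f1.B_inv b hb).1
  have hbot : ∀ {P : Subgroup G} {t : G}, t ≠ 1 → t ∈ P → P ≠ ⊥ := by
    intro P t ht1 ht h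
    rw [h, Subgroup.mem_bot] at ht
    exact ht1 ht
  have mab := H.meet ha hb hab hPa hPb haP hbP
  have mac := H.meet ha hc hac hPa hPc haP hcP
  have mbc := H.meet hb hc hbc hPb hPc hbP hcP
  have nab : Pa ≠ Pb := by
    rintro rfl
    rw [inf_idem] at h0
    exact mac h0
  have nac : Pa ≠ Pc := by
    rintro rfl
    rw [inf_right_comm, inf_idem] at h0
    exact mab h0
  have nbc : Pb ≠ Pc := by
    rintro rfl
    rw [inf_assoc, inf_idem] at h0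
    exact mab h0
  have h0' : Pb ⊓ Pa ⊓ Pc = ⊥ := by rw [inf_comm Pb Pa]; exact h0
  have h0'' : Pc ⊓ Pa ⊓ Pb = ⊥ := by
    rw [inf_comm Pc Pa, inf_right_comm]; exact h0
  have hsplit : ∀ {P P' : Subgroup G}, Γ.Pt P → Γ.Pt P' → P ≠ P' → P ⊓ P' ≠ ⊥ →
      (∃ z, z ≠ 1 ∧ ∀ x, x ∈ P ⊓ P' ↔ x = 1 ∨ x = z) ∨ Γ.Ln (P ⊓ P') := by
    intro P P' hP hP' hne hm
    rcases H.f5 P P' hP hP' hne with h | ⟨z, hz, h⟩ | h
    · exact absurd h hm
    · exact Or.inl ⟨z, (H.f1.A_inv z hz).1, h⟩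
    · exact Or.inr h
  rcases hsplit hPa hPb nab mab with ⟨z, hz1, h1⟩ | h1
  · rcases hsplit hPa hPc nac mac with ⟨z', hz1', h2⟩ | h2
    · exact H.main ha hb hc hab hac hbc hPa hPb hPc haP hbP hcP h0 nab nac nbc hz1 hz1' h1 h2
    · rcases hsplit hPb hPc nbc mbc with ⟨z', hz1', h3⟩ | h3
      · have h1' : ∀ x, x ∈ Pb ⊓ Pa ↔ x = 1 ∨ x = z := by
          intro x
          rw [inf_comm]
          exact h1 x
        obtain ⟨P, K, g1, g2, g3, g4, g5⟩ := H.main hb ha hc hab.symm hbc hac hPb hPa hPc hbP haP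
          hcP h0' nab.symm nbc nac hz1 hz1' h1' h3
        exact ⟨P, K, g1, g2, g3, g4, fun x hx y y1 y2 y3 => g5 x hx y y2 y1 y3⟩
      · exfalso
        have h2' : Γ.Ln (Pc ⊓ Pa) := by rw [inf_comm]; exact h2
        have h3' : Γ.Ln (Pc ⊓ Pb) := by rw [inf_comm]; exact h3
        exact H.caseN hc ha hb hac.symm hbc.symm hab hPc hPa hPb hcP haP hbP h0'' nab h2' h3'
  · rcases hsplit hPa hPc nac mac with ⟨z', hz1', h2⟩ | h2
    · rcases hsplit hPb hPc nbc mbc with ⟨z, hz1, h3⟩ | h3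
      · have h2' : ∀ x, x ∈ Pc ⊓ Pa ↔ x = 1 ∨ x = z' := by
          intro x
          rw [inf_comm]
          exact h2 x
        have h3' : ∀ x, x ∈ Pc ⊓ Pb ↔ x = 1 ∨ x = z := by
          intro x
          rw [inf_comm]
          exact h3 x
        obtain ⟨P, K, g1, g2, g3, g4, g5⟩ := H.main hc ha hb hac.symm hbc.symm hab hPc hPa hPb hcP
          haP hbP h0'' nac.symm nbc.symm nab hz1' hz1 h2' h3'
        exact ⟨P, K, g1, g2, g3, g4, fun x hx y y1 y2 y3 => g5 x hx y y3 y1 y2⟩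
      · exfalso
        have h1' : Γ.Ln (Pb ⊓ Pa) := by rw [inf_comm]; exact h1
        exact H.caseN hb ha hc hab.symm hbc hac hPb hPa hPc hbP haP hcP h0' nac h1' h3
    · exfalso
      exact H.caseN ha hb hc hab hac hbc hPa hPb hPc haP hbP hcP h0 nbc h1 h2

end Cfsg.Agent.H705.JM.BadAbs
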