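import Cfsg.Agent.H858.Data

/-!
# (F18): equations in `J4`

For the representatives `u = V(v) m` (`m` an involution of `M24`) of class 2B the element `g = p w'` satisfies
`u = g V(5) g⁻¹` (equations `eqsC`) and `V(e) g = g V(b)` (equations `eqsB`).
-/

set_option autoImplicit false

namespace Cfsg.Agent.H705.JM.BadData

open Cfsg Cfsg.Agent.Lib Cfsg.Agent.Lib.F2MatGroup Cfsg.Agent.J4.Rep112 Cfsg.Agent.J4.Lower
open Cfsg.Agent.J4.LowerData Cfsg.Agent.J4.GroupLemmas Cfsg.Agent.J4.Beta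
open Cfsg.Agent.J4.ClassesData Cfsg.Agent.J4.M24Hom Cfsg.Agent.J4.Classes Cfsg.Agent.J4.Pres
open Cfsg.Agent.J4.M24InvolData Cfsg.Agent.SporadicStructure.M24El
open Cfsg.Agent.H858.VK (rho_injective)
open Cfsg.Agent.H858.Data (V lJ rho_V map_lJ lJ_length)

/-- the group `Spor.J4` -/
local notation "𝒢" => Cfsg.Spor.J4

/-- the equations -/
def eqsB : List (List ℕ × List ℕ) := [
  ([42, 43, 44, 46, 47, 48, 32, 58, 56, 55, 57], [32, 58, 56, 55, 57, 43, 45, 47, 48, 50, 51]),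
  ([43, 44, 50, 32, 58, 56, 55, 57], [32, 58, 56, 55, 57, 45, 47, 49, 52]),
  ([42, 46, 47, 48, 50, 32, 58, 56, 55, 57], [32, 58, 56, 55, 57, 43, 48, 49, 50, 51, 52]),
  ([42, 43, 44, 46, 47, 48, 28, 58, 56, 58], [28, 58, 56, 58, 44, 45, 48, 49, 51, 52]),
  ([42, 43, 44, 45, 46, 47, 49, 50, 28, 58, 56, 58], [28, 58, 56, 58, 43, 44, 45, 46, 47, 48, 49, 50]),
  ([45, 48, 49, 50, 28, 58, 56, 58], [28, 58, 56, 58, 43, 46, 47, 50, 51, 52]),
  ([42, 43, 44, 46, 47, 48, 24, 57, 58, 55, 57], [24, 57, 58, 55, 57, 43, 45, 46, 47, 48, 50]),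
  ([42, 45, 46, 47, 49, 24, 57, 58, 55, 57], [24, 57, 58, 55, 57, 42, 44, 45, 47, 49, 50, 52]),
  ([43, 44, 45, 48, 49, 24, 57, 58, 55, 57], [24, 57, 58, 55, 57, 42, 43, 44, 46, 48, 49, 52]),
  ([43, 44, 45, 48, 49, 20, 57, 58, 56], [20, 57, 58, 56, 42, 43, 44, 47, 49, 52]),
  ([43, 44, 50, 20, 57, 58, 56], [20, 57, 58, 56, 44, 45, 47, 51, 52]),
  ([45, 48, 49, 50, 20, 57, 58, 56], [20, 57, 58, 56, 42, 43, 45, 49, 51]),
  ([42, 45, 46, 47, 49, 16, 58, 56, 58], [16, 58, 56, 58, 42, 43, 44, 47, 50, 51]),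
  ([43, 44, 50, 16, 58, 56, 58], [16, 58, 56, 58, 42, 44, 45, 47]),
  ([42, 43, 44, 45, 46, 47, 49, 50, 16, 58, 56, 58], [16, 58, 56, 58, 43, 45, 50, 51]),
  ([42, 45, 46, 47, 49, 12, 58, 57, 58, 57, 58, 56],
    [12, 58, 57, 58, 57, 58, 56, 42, 44, 45, 46, 48, 49, 50, 52]),
  ([42, 46, 47, 48, 50, 12, 58, 57, 58, 57, 58, 56], [12, 58, 57, 58, 57, 58, 56, 43, 45, 46, 50]),
  ([45, 48, 49, 50, 12, 58, 57, 58, 57, 58, 56],
    [12, 58, 57, 58, 57, 58, 56, 42, 43, 44, 48, 49, 52]),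
  ([43, 44, 45, 48, 49, 8, 58], [8, 58, 43, 44, 48, 49, 51]),
  ([42, 46, 47, 48, 50, 8, 58], [8, 58, 43, 44, 45, 46, 47, 48, 49, 51]),
  ([42, 43, 44, 45, 46, 47, 49, 50, 8, 58], [8, 58, 45, 46, 47]),
  ([44, 46, 4, 55, 56, 58, 56, 58], [4, 55, 56, 58, 56, 58, 42, 43, 45, 48, 49, 51, 52]),
  ([58, 45, 47, 50, 58], [43, 45, 46, 48, 52, 57, 55, 56, 55, 57, 55, 56, 55, 57, 55, 56]),
  ([58, 58], [])]

theorem checkB : check 112 codes (slpQ ++ slpC) eqsB [] = true := by decide +kernel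

/-! ### The environment -/

/-- the environment -/
noncomputable def LG : List 𝒢 := runG slpC (runG slpQ gens)

theorem map_LG : LG.map rho = LC := by
  unfold LG LC mgens
  rw [runG_map, runG_map]

theorem eq_of {E : List (List ℕ × List ℕ)} (h : check 112 codes (slpQ ++ slpC) E [] = true) :
    ∀ p ∈ E, evG LG p.1 = evG LG p.2 := by
  intro p hp
  apply rho_injective
  have h1 := (check_sound (n := 112) (by norm_num) codes_gens h).1 p hp
  rw [runG_append] at h1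
  rw [← evG_map, ← evG_map, map_LG]
  exact h1

theorem eqB : ∀ p ∈ eqsB, evG LG p.1 = evG LG p.2 := eq_of checkB
theorem eqC' : ∀ p ∈ eqsC, evG LG p.1 = evG LG p.2 := eq_of checkC

theorem rho_getG (k : ℕ) : rho (getG LG k) = getG LC k := by
  rw [← map_LG]
  exact (getG_map rho LG k).symm

theorem getG_LG (k : ℕ) (hk : k < 11) : getG LG (42 + k) = lJ.getD k 1 := by
  have h := getG_runG slpC (runG slpQ gens) k
  rw [slpC_length] at h
  exact h.trans (getG_take _ 11 k hk)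

theorem bwV (v : ℕ) : evG LG (bw 11 42 v) = V v := by
  have h := evG_bw LG lJ 42 v (by rw [lJ_length]; exact getG_LG)
  rwa [lJ_length] at h

theorem getG55 : getG LG 55 = phi XM := rho_injective (by rw [rho_getG]; exact getX.trans psi_X.symm)
theorem getG56 : getG LG 56 = phi YM := rho_injective (by rw [rho_getG]; exact getYI.trans psi_Y.symm)
theorem getG57 : getG LG 57 = (phi YM)⁻¹ := rho_injective (by
  rw [rho_getG, map_inv]
  refine getY.trans ?_
  rw [map_inv]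
  exact congrArg _ psi_Y.symm)
theorem getG58 : getG LG 58 = t := rfl
theorem getG41 : getG LG 41 = phi (el P1) := rho_injective (by rw [rho_getG]; exact getG_41)
theorem getG52 : getG LG 52 = V 1024 := rho_injective (by rw [rho_getG, rho_V]; exact getG_52)
theorem getG40 : getG LG 40 = V 5 := rho_injective (by rw [rho_getG, rho_V]; exact getG_40)

/-! ### The representatives -/

/-- (v, index of u, index of p, word of `w'`, word of `w'⁻¹`, pairs (e, b)) -/
abbrev Row := ℕ × ℕ × ℕ × List ℕ × List ℕ × List (ℕ × ℕ)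

/-- type 1, class 2B -/
def repsB : List Row := [
  (34, 35, 32, [58, 56, 55, 57], [56, 55, 57, 58], [(119, 874), (262, 1192), (369, 1986)]),
  (517, 31, 28, [58, 56, 58], [58, 57, 58], [(119, 1740), (447, 510), (456, 1842)]),
  (551, 27, 24, [57, 58, 55, 57], [56, 55, 58, 56], [(119, 378), (185, 1453), (206, 1239)]),
  (1047, 23, 20, [57, 58, 56], [57, 58, 56], [(206, 1191), (262, 1580), (456, 651)]),
  (1077, 19, 16, [58, 56, 58], [58, 57, 58], [(185, 807), (262, 45), (447, 778)]),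
  (1554, 15, 12, [58, 57, 58, 57, 58, 56], [57, 58, 56, 58, 56, 58],
    [(185, 1501), (369, 282), (456, 1223)]),
  (1584, 11, 8, [58], [58], [(206, 710), (369, 766), (447, 56)])]

/-- check of a representative -/
def repOkB (E E' : List (List ℕ × List ℕ)) (im tg : ℕ) (r : Row) : Bool :=
  E.contains ([r.2.1], bw 11 42 r.1 ++ [im]) &&
    E.contains ([r.2.1, r.2.2.1], [r.2.2.1] ++ r.2.2.2.1 ++ [tg] ++ r.2.2.2.2.1) &&
    E.contains (r.2.2.2.1 ++ r.2.2.2.2.1, []) &&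
    r.2.2.2.2.2.all fun p => E'.contains (bw 11 42 p.1 ++ [r.2.2.1] ++ r.2.2.2.1,
      [r.2.2.1] ++ r.2.2.2.1 ++ bw 11 42 p.2)

theorem rep_sound {im tg : ℕ} {r : Row} (h : repOkB eqsC eqsB im tg r = true) :
    ∃ g : 𝒢, V r.1 * getG LG im = g * getG LG tg * g⁻¹ ∧
      ∀ p ∈ r.2.2.2.2.2, g⁻¹ * V p.1 * g = V p.2 := by
  unfold repOkB at h
  rw [Bool.and_eq_true, Bool.and_eq_true, Bool.and_eq_true, List.contains_iff_mem,
    List.contains_iff_mem, List.contains_iff_mem, List.all_eq_true] at h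
  obtain ⟨⟨⟨h1, h2⟩, h3⟩, h4⟩ := h
  have e1 := eqC' _ h1
  have e2 := eqC' _ h2
  have e3 := eqC' _ h3
  simp only [evG_append, evG_single, bwV] at e1
  simp only [evG_append, evG_cons, evG_nil, mul_one] at e2
  simp only [evG_append, evG_nil] at e3
  have hw' : evG LG r.2.2.2.2.1 = (evG LG r.2.2.2.1)⁻¹ := eq_inv_of_mul_eq_one_right e3
  rw [hw'] at e2
  refine ⟨getG LG r.2.2.1 * evG LG r.2.2.2.1, ?_, ?_⟩
  · rw [← e1]
    have : getG LG r.2.1 = getG LG r.2.1 * getG LG r.2.2.1 * (getG LG r.2.2.1)⁻¹ := by group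
    rw [this, e2]
    group
  · intro p hp
    have h5 := h4 p hp
    rw [List.contains_iff_mem] at h5
    have e4 := eqB _ h5
    simp only [evG_append, evG_single, bwV] at e4
    rw [mul_assoc, ← mul_assoc (V p.1), e4]
    group

theorem repsB_ok : (repsB.all fun r => repOkB eqsC eqsB 41 40 r) = true := by decide +kernel

theorem repX : ∃ g : 𝒢, phi XM = g * V 5 * g⁻¹ ∧ g⁻¹ * V 20 * g = V 1739 := by
  obtain ⟨g, h1, h2⟩ := rep_sound (im := 55) (tg := 40)
    (r := (0, 7, 4, [55, 56, 58, 56, 58], [58, 57, 58, 57, 55], [(20, 1739)])) (by decide +kernel)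
  refine ⟨g, ?_, h2 (20, 1739) (List.mem_singleton.2 rfl)⟩
  rw [getG55, getG40, Cfsg.Agent.H858.Data.V_zero, one_mul] at h1
  exact h1

theorem repXA : ∃ g : 𝒢, V 5 * phi XM = g * V 1024 * g⁻¹ := by
  obtain ⟨g, h1, -⟩ := rep_sound (im := 55) (tg := 52)
    (r := (5, 3, 0, [56, 55, 56, 58], [58, 57, 55, 57], [])) (by decide +kernel)
  refine ⟨g, ?_⟩
  rw [getG55, getG52] at h1
  exact h1

theorem rep1A : ∃ g : 𝒢, phi (el P1) = g * V 1024 * g⁻¹ := by
  obtain ⟨g, h1, -⟩ := rep_sound (im := 41) (tg := 52)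
    (r := (0, 39, 36, [58, 56], [57, 58], [])) (by decide +kernel)
  refine ⟨g, ?_⟩
  rw [getG41, getG52, Cfsg.Agent.H858.Data.V_zero, one_mul] at h1
  exact h1

theorem t_sq : (t : 𝒢) * t = 1 := by
  have h := eqB ([58, 58], []) (by decide +kernel)
  simpa only [evG_cons, evG_nil, mul_one, getG58] using h

/-- the word of `c` -/
def cW : List ℕ := [2, 0, 1, 0, 2]

theorem line_eq : (t : 𝒢) * V 296 * t = V 1114 * (phi (Cfsg.Agent.J4.Nodes.wordG cW) * phi XM *
    (phi (Cfsg.Agent.J4.Nodes.wordG cW))⁻¹) := by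
  have h := eqB ([58] ++ bw 11 42 296 ++ [58],
    bw 11 42 1114 ++ [57, 55, 56, 55, 57, 55, 56, 55, 57, 55, 56]) (by decide +kernel)
  simp only [evG_append, evG_single, bwV, getG58] at h
  rw [h]
  congr 1
  have e1 : Cfsg.Agent.J4.Nodes.wordG cW = YM⁻¹ * (XM * (YM * (XM * (YM⁻¹ * 1)))) := rfl
  rw [e1]
  simp only [evG_cons, evG_nil, getG55, getG56, getG57, map_mul, map_inv, mul_one]
  have hX : phi XM = (phi XM)⁻¹ := by
    rw [eq_inv_iff_mul_eq_one, ← map_mul]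
    have h3 : XM * XM = 1 := by
      have h4 : Cfsg.Agent.J4.Nodes.wordG [0, 0] = Cfsg.Agent.J4.Nodes.wordG [] :=
        Cfsg.Agent.H858.M24Norm.wordG_eq (by decide +kernel)
      exact h4
    rw [h3, map_one]
  simp only [mul_inv_rev, inv_inv, ← hX, mul_assoc]

end Cfsg.Agent.H705.JM.BadData
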