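import Cfsg.Agent.H705.JM.BadAbs
import Cfsg.Agent.H705.JM.BadData
import Cfsg.Agent.H825.JM.Lines

/-!
# (F18): elements of `N(2^11)` in coordinates
-/

set_option autoImplicit false

namespace Cfsg.Agent.H705.JM.BadBase

open Cfsg Cfsg.Agent.J4.Rep112 Cfsg.Agent.J4.Beta Cfsg.Agent.J4.ClassesAbs
open Cfsg.Agent.J4.ClassesData Cfsg.Agent.J4.M24Hom Cfsg.Agent.J4.Classes Cfsg.Agent.J4.Pres
open Cfsg.Agent.J4.M24InvolData Cfsg.Agent.SporadicStructure.M24El
open Cfsg.Agent.J4.Nodes (wordG)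
open Cfsg.Agent.H858.VK (rho_injective phi_injective actG mem_B phi_norm)
open Cfsg.Agent.H858.Data (V rho_V V_xor V_zero V_sq V_inv V_comm V_inj V_mem)
open Cfsg.Agent.H858.Loc7 (Z) 
open Cfsg.Agent.H825.JM (conj_word normalizer_EJ line_EJ)
open Cfsg.Agent.H860.JM Cfsg.Agent.H705.JM.BadData Cfsg.Agent.H705.JM.BadAbs

/-- the group `Spor.J4` -/
local notation "𝒢" => Cfsg.Spor.J4
/-- the group `2^11` -/
local notation "𝓔" => Cfsg.Agent.J4.Invol.EJ

/-! ### Classes -/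

theorem s_eq : Cfsg.Agent.J4.Invol.s = V 1024 :=
  rho_injective (by rw [Cfsg.Agent.J4.Invol.rho_s, rho_V])
theorem d_eq : Cfsg.Agent.J4.Invol.d = V 5 :=
  rho_injective (by rw [Cfsg.Agent.J4.Invol.rho_d, rho_V])

theorem A_s : geo.A (V 1024) := by
  show IsConj _ _
  rw [s_eq]
theorem B_d : geo.B (V 5) := by
  show IsConj _ _
  rw [d_eq]

theorem A_conj' {g u : 𝒢} (h : geo.A u) : geo.A (g * u * g⁻¹) :=
  IsConj.trans (show IsConj _ _ from h) (isConj_iff.2 ⟨g, rfl⟩)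
theorem B_conj' {g u : 𝒢} (h : geo.B u) : geo.B (g * u * g⁻¹) :=
  IsConj.trans (show IsConj _ _ from h) (isConj_iff.2 ⟨g, rfl⟩)
theorem A_of_conj {g u : 𝒢} (h : geo.A (g * u * g⁻¹)) : geo.A u := by
  have h1 := A_conj' (g := g⁻¹) h
  have e : g⁻¹ * (g * u * g⁻¹) * g⁻¹⁻¹ = u := by group
  rwa [e] at h1
theorem B_of_conj {g u : 𝒢} (h : geo.B (g * u * g⁻¹)) : geo.B u := by
  have h1 := B_conj' (g := g⁻¹) h
  have e : g⁻¹ * (g * u * g⁻¹) * g⁻¹⁻¹ = u := by group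
  rwa [e] at h1

theorem not_AB {u : 𝒢} (h : geo.A u) (h' : geo.B u) : False :=
  Cfsg.Agent.J4.Invol.not_isConj_s_d ((show IsConj _ _ from h).trans (show IsConj _ _ from h').symm)

theorem V_ne {v : ℕ} (hv : v < 2048) (h0 : v ≠ 0) : V v ≠ 1 := by
  rw [← V_zero]
  exact fun h => h0 (V_inj hv (by norm_num) h)

theorem A_sq {u : 𝒢} (h : geo.A u) : u * u = 1 := by
  obtain ⟨g, hg⟩ := isConj_iff.1 (show IsConj _ _ from h)
  rw [← hg, s_eq]
  calc g * V 1024 * g⁻¹ * (g * V 1024 * g⁻¹) = g * (V 1024 * V 1024) * g⁻¹ := by group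
    _ = 1 := by rw [V_sq]; group
theorem B_sq {u : 𝒢} (h : geo.B u) : u * u = 1 := by
  obtain ⟨g, hg⟩ := isConj_iff.1 (show IsConj _ _ from h)
  rw [← hg, d_eq]
  calc g * V 5 * g⁻¹ * (g * V 5 * g⁻¹) = g * (V 5 * V 5) * g⁻¹ := by group
    _ = 1 := by rw [V_sq]; group
theorem A_ne {u : 𝒢} (h : geo.A u) : u ≠ 1 := by
  rintro rfl
  obtain ⟨g, hg⟩ := isConj_iff.1 (show IsConj _ _ from h)
  apply V_ne (v := 1024) (by norm_num) (by norm_num)
  rw [s_eq] at hg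
  calc V 1024 = g⁻¹ * (g * V 1024 * g⁻¹) * g := by group
    _ = 1 := by rw [hg]; group
theorem B_ne {u : 𝒢} (h : geo.B u) : u ≠ 1 := by
  rintro rfl
  obtain ⟨g, hg⟩ := isConj_iff.1 (show IsConj _ _ from h)
  apply V_ne (v := 5) (by norm_num) (by norm_num)
  rw [d_eq] at hg
  calc V 5 = g⁻¹ * (g * V 5 * g⁻¹) * g := by group
    _ = 1 := by rw [hg]; group

/-- sextets -/
def sx (q : ℕ) : Bool := Nat.blt (tget pos 11 q) 1771

theorem V_cls {q : ℕ} (hq : q < 2048) (h0 : q ≠ 0) :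
    (sx q = true ∧ geo.A (V q)) ∨ (sx q = false ∧ geo.B (V q)) := by
  have h1 := orb_ok
  unfold orbOk at h1
  rw [Bool.and_eq_true, Bool.and_eq_true, List.all_eq_true, List.all_eq_true] at h1
  have h2 := h1.1.2 q (List.mem_range.mpr hq)
  rw [Bool.or_eq_true, Nat.beq_eq, Bool.and_eq_true, Nat.blt_eq, Nat.beq_eq] at h2
  rcases h2 with h2 | ⟨h2, h3⟩
  · exact absurd h2 h0
  · obtain ⟨m, hm⟩ := Cfsg.Agent.J4.Invol.conj_arr hyp _ h2
    rw [h3] at hm
    by_cases h4 : tget pos 11 q < 1771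
    · left
      refine ⟨by unfold sx; rw [Nat.blt_eq]; exact h4, ?_⟩
      have h5 : V q = phi m * V 1024 * (phi m)⁻¹ := by
        apply rho_injective
        rw [map_mul, map_mul, map_inv, rho_V, rho_V, hm, if_pos h4]
        rfl
      rw [h5]
      exact A_conj' A_s
    · right
      refine ⟨?_, ?_⟩
      · unfold sx
        rw [← Bool.not_eq_true, Nat.blt_eq]
        exact h4
      have h5 : V q = phi m * V 5 * (phi m)⁻¹ := by
        apply rho_injective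
        rw [map_mul, map_mul, map_inv, rho_V, rho_V, hm, if_neg h4]
        rfl
      rw [h5]
      exact B_conj' B_d

theorem A_of_sx {q : ℕ} (hq : q < 2048) (h0 : q ≠ 0) (h : sx q = true) : geo.A (V q) := by
  rcases V_cls hq h0 with h1 | h1
  · exact h1.2
  · rw [h] at h1
    exact absurd h1.1 (by decide)
theorem B_of_sx {q : ℕ} (hq : q < 2048) (h0 : q ≠ 0) (h : sx q = false) : geo.B (V q) := by
  rcases V_cls hq h0 with h1 | h1
  · rw [h] at h1
    exact absurd h1.1 (by decide)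
  · exact h1.2
theorem sx_of_A {q : ℕ} (hq : q < 2048) (h : geo.A (V q)) : q ≠ 0 ∧ sx q = true := by
  have h0 : q ≠ 0 := by
    rintro rfl
    exact A_ne h V_zero
  rcases V_cls hq h0 with h1 | h1
  · exact ⟨h0, h1.1⟩
  · exact absurd h1.2 fun h2 => not_AB h h2
theorem sx_of_B {q : ℕ} (hq : q < 2048) (h : geo.B (V q)) : q ≠ 0 ∧ sx q = false := by
  have h0 : q ≠ 0 := by
    rintro rfl
    exact B_ne h V_zero
  rcases V_cls hq h0 with h1 | h1
  · exact absurd h (fun h2 => not_AB h1.2 h2)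
  · exact ⟨h0, h1.1⟩

/-! ### Coordinates -/

theorem actX' (v : ℕ) : phi XM * V v * (phi XM)⁻¹ = V (lin Ax v) := by
  apply rho_injective
  rw [map_mul, map_mul, map_inv, rho_V, rho_V]
  exact hyp.actX v
theorem act1' (v : ℕ) : phi (el P1) * V v * (phi (el P1))⁻¹ = V (lin A1 v) := by
  apply rho_injective
  rw [map_mul, map_mul, map_inv, rho_V, rho_V]
  exact hyp.act1 v

theorem Ax_lt : ∀ v < 2048, lin Ax v < 2048 := fun v _ =>
  Cfsg.Agent.H858.VK.lin_lt (by decide +kernel) v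
theorem A1_lt : ∀ v < 2048, lin A1 v < 2048 := fun v _ =>
  Cfsg.Agent.H858.VK.lin_lt (by decide +kernel) v

theorem sqX : XM * XM = 1 := by
  have h4 : wordG [0, 0] = wordG [] := Cfsg.Agent.H858.M24Norm.wordG_eq (by decide +kernel)
  exact h4

theorem phiX_sq : phi XM * phi XM = 1 := by rw [← map_mul, sqX, map_one]

theorem phi1_sq : phi (el P1) * phi (el P1) = 1 := by
  have h2 := eqC' ([41, 41], []) (by decide +kernel)
  simpa only [Cfsg.Agent.Lib.F2MatGroup.evG_cons, Cfsg.Agent.Lib.F2MatGroup.evG_nil, mul_one,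
    getG41] using h2

theorem phiX_inv : (phi XM)⁻¹ = phi XM := inv_eq_of_mul_eq_one_left phiX_sq
theorem phi1_inv : (phi (el P1))⁻¹ = phi (el P1) := inv_eq_of_mul_eq_one_left phi1_sq

section coord

variable {φ : 𝒢} {A : List ℕ}

theorem push (hact : ∀ v, φ * V v * φ⁻¹ = V (lin A v)) (v : ℕ) :
    φ * V v = V (lin A v) * φ := by
  rw [← hact]; group

theorem fix_of_sq (hact : ∀ v, φ * V v * φ⁻¹ = V (lin A v)) (hA : ∀ v < 2048, lin A v < 2048)
    (hφ : φ * φ = 1) {v : ℕ} (hv : v < 2048) (h : V v * φ * (V v * φ) = 1) : lin A v = v := by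
  have h1 : V v * V (lin A v) = 1 := by
    rw [← hact]
    calc V v * (φ * V v * φ⁻¹) = V v * φ * (V v * φ) * (φ * φ)⁻¹ := by group
      _ = 1 := by rw [h, hφ]; group
  have h2 : V (lin A v) = V v := by
    rw [← V_inv v]
    exact (inv_eq_of_mul_eq_one_right h1).symm
  exact V_inj (hA v hv) hv h2

theorem comm_iff (hact : ∀ v, φ * V v * φ⁻¹ = V (lin A v)) (hA : ∀ v < 2048, lin A v < 2048)
    {u v : ℕ} (hv : v < 2048) : V v * (V u * φ) = V u * φ * V v ↔ lin A v = v := by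
  have e1 : V u * φ * V v = V (lin A v) * (V u * φ) := by
    rw [mul_assoc, push hact, ← mul_assoc, V_comm u, mul_assoc]
  rw [e1]
  constructor
  · intro h
    exact (V_inj hv (hA v hv) (mul_right_cancel h)).symm
  · intro h
    rw [h]

theorem conj_r (hact : ∀ v, φ * V v * φ⁻¹ = V (lin A v)) (w r : ℕ) :
    V (w ^^^ r ^^^ lin A r) * φ = V r * (V w * φ) * (V r)⁻¹ := by
  calc V (w ^^^ r ^^^ lin A r) * φ = V w * V r * (V (lin A r) * φ) := by
        rw [V_xor, V_xor]; group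
    _ = V w * V r * (φ * V r) := by rw [push hact]
    _ = V r * V w * (φ * V r) := by rw [V_comm]
    _ = V r * (V w * φ) * (V r)⁻¹ := by rw [V_inv]; group

end coord

theorem cj_V (g : 𝒢) (r : ℕ) : cj (g * V r) 𝓔 = cj g 𝓔 := by
  rw [← cj_cj]
  congr 1
  rw [cj_eq_iff]
  exact Subgroup.le_normalizer (V_mem r)

theorem conj_V_V (g : 𝒢) (r e : ℕ) : g * V r * V e * (g * V r)⁻¹ = g * V e * g⁻¹ := by
  rw [mul_inv_rev, mul_assoc g, V_comm r e]; group

theorem mem_cj_V (g : 𝒢) (e : ℕ) : g * V e * g⁻¹ ∈ cj g 𝓔 := by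
  rw [mem_cj]
  have : g⁻¹ * (g * V e * g⁻¹) * g = V e := by group
  rw [this]
  exact V_mem e

theorem exists_V {g x : 𝒢} (h : x ∈ cj g 𝓔) : ∃ v < 2048, x = g * V v * g⁻¹ := by
  rw [mem_cj] at h
  obtain ⟨v, hv, h1⟩ := Cfsg.Agent.H858.Data.mem_EJ.1 h
  exact ⟨v, hv, by rw [← h1]; group⟩

theorem conj_inj {g x y : 𝒢} (h : g * x * g⁻¹ = g * y * g⁻¹) : x = y :=
  mul_left_cancel (mul_right_cancel h)

/-- an involution normalizing a point and outside it, in coordinates -/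
theorem types {g u : 𝒢} (hn : u ∈ Subgroup.normalizer (cj g 𝓔 : Set 𝒢)) (hu : u ∉ cj g 𝓔)
    (huu : u * u = 1) : ∃ h, cj h 𝓔 = cj g 𝓔 ∧ ∃ v < 2048,
      u = h * (V v * phi (el P1)) * h⁻¹ ∨ u = h * (V v * phi XM) * h⁻¹ := by
  rw [normalizer_cj, mem_cj, normalizer_EJ] at hn
  obtain ⟨e, he, k, hk⟩ := mem_B.1 hn
  have huE : g⁻¹ * u * g ∉ 𝓔 := fun h => hu (mem_cj.2 h)
  have hk1 : k ≠ 1 := by
    rintro rfl
    rw [map_one, mul_one] at hk
    exact huE (hk ▸ he)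
  have hsq : e * phi k * (e * phi k) = 1 := by
    rw [← hk]
    calc g⁻¹ * u * g * (g⁻¹ * u * g) = g⁻¹ * (u * u) * g := by group
      _ = 1 := by rw [huu]; group
  have hkk : k * k = 1 := by
    apply phi_injective
    rw [map_one]
    apply Cfsg.Agent.H858.VK.inf_eq_one
    · have h1 : phi (k * k) = (phi k * e * (phi k)⁻¹)⁻¹ * e⁻¹ := by
        rw [map_mul]
        have : e * phi k * (e * phi k) = e * (phi k * e * (phi k)⁻¹) * (phi k * phi k) := by
          group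
        rw [this] at hsq
        rw [← mul_inv_rev]
        exact eq_inv_of_mul_eq_one_right hsq
      rw [h1]
      exact Subgroup.mul_mem _ (Subgroup.inv_mem _
        ((Subgroup.mem_normalizer_iff.1 (phi_norm ⟨k, rfl⟩) e).1 he)) (Subgroup.inv_mem _ he)
    · exact ⟨_, rfl⟩
  obtain ⟨ν, hν⟩ := Cfsg.Agent.J4.M24Invol.invol_conj k hkk hk1
  obtain ⟨v, hv, hev⟩ := Cfsg.Agent.H858.Data.mem_EJ.1
    ((Subgroup.mem_normalizer_iff.1 (phi_norm ⟨ν, rfl⟩) e).1 he)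
  have hX : el P2 = XM := by
    apply Subtype.ext
    rw [coe_el Cfsg.Agent.J4.M24Invol.ok_P2]
    ext1 p
    rw [Cfsg.Agent.SporadicA.GolayPerm.permOf_apply]
    revert p
    decide +kernel
  rw [hX] at hν
  refine ⟨g * (phi ν)⁻¹, ?_, v, hv, ?_⟩
  · rw [← cj_cj]
    congr 1
    rw [cj_eq_iff]
    exact Subgroup.inv_mem _ (phi_norm ⟨ν, rfl⟩)
  · have key : ∀ m, ν * k * ν⁻¹ = m → u = g * (phi ν)⁻¹ * (V v * phi m) * (g * (phi ν)⁻¹)⁻¹ := by
      rintro m rfl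
      have e1 : u = g * (g⁻¹ * u * g) * g⁻¹ := by group
      rw [e1, hk, ← hev, map_mul, map_mul, map_inv]
      group
    rcases hν with hν | hν
    · exact Or.inl (key _ hν)
    · exact Or.inr (key _ hν)

/-! ### Sets of elements of a point -/

theorem le_ncard {S : Set 𝒢} {g : 𝒢} {l : List ℕ} (hnd : l.Nodup) (hlt : ∀ e ∈ l, e < 2048)
    (h : ∀ e ∈ l, g * V e * g⁻¹ ∈ S) : l.length ≤ S.ncard := by
  classical
  have h1 : ((l.toFinset : Finset ℕ) : Set ℕ).ncard ≤ S.ncard := by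
    refine Set.ncard_le_ncard_of_injOn (fun e => g * V e * g⁻¹) ?_ ?_ (Set.toFinite _)
    · intro e he
      exact h e (List.mem_toFinset.1 he)
    · intro e he e' he' hee
      exact V_inj (hlt e (List.mem_toFinset.1 he)) (hlt e' (List.mem_toFinset.1 he')) (conj_inj hee)
  rwa [Set.ncard_coe_finset, List.toFinset_card_of_nodup hnd] at h1

theorem ncard_le {S : Set 𝒢} {g : 𝒢} {l : List ℕ} (h : ∀ x ∈ S, ∃ e ∈ l, x = g * V e * g⁻¹) :
    S.ncard ≤ l.length := by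
  classical
  have h1 : S.ncard ≤ (((l.toFinset.image fun e => g * V e * g⁻¹) : Finset 𝒢) : Set 𝒢).ncard := by
    refine Set.ncard_le_ncard ?_ (Set.toFinite _)
    intro x hx
    obtain ⟨e, he, rfl⟩ := h x hx
    exact Finset.mem_coe.2 (Finset.mem_image.2 ⟨e, List.mem_toFinset.2 he, rfl⟩)
  rw [Set.ncard_coe_finset] at h1
  exact h1.trans (Finset.card_image_le.trans (List.toFinset_card_le l))

theorem tyA_conj {x y : 𝒢} (g : 𝒢) (h : TyA geo x y) : TyA geo (g * x * g⁻¹) (g * y * g⁻¹) := by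
  obtain ⟨_, ⟨k, rfl⟩, hx, hy⟩ := h
  refine ⟨cj (g * k) Z, ⟨g * k, rfl⟩, ?_, ?_⟩
  · rw [← cj_cj, mem_cj]
    have e : g⁻¹ * (g * x * g⁻¹) * g = x := by group
    rw [e]; exact hx
  · rw [← cj_cj, mem_cj]
    have e : g⁻¹ * (g * y * g⁻¹) * g = y := by group
    rw [e]; exact hy

end Cfsg.Agent.H705.JM.BadBase
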