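import Cfsg.Agent.H705.JM.BadBase
import Mathlib.GroupTheory.Perm.Cycle.Type

/-!
# (F18): the 2B elements of `N(2^11)` outside `2^11` and their points
-/

set_option autoImplicit false

namespace Cfsg.Agent.H705.JM.BadFacts

open Cfsg Cfsg.Agent.J4.Rep112 Cfsg.Agent.J4.Beta Cfsg.Agent.J4.ClassesAbs
open Cfsg.Agent.J4.ClassesData Cfsg.Agent.J4.M24Hom Cfsg.Agent.J4.Classes Cfsg.Agent.J4.Pres
open Cfsg.Agent.J4.M24InvolData Cfsg.Agent.SporadicStructure.M24El
open Cfsg.Agent.J4.Nodes (wordG)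
open Cfsg.Agent.H858.VK (rho_injective phi_injective actG mem_B phi_norm)
open Cfsg.Agent.H858.Data (V rho_V V_xor V_zero V_sq V_inv V_comm V_inj V_mem)
open Cfsg.Agent.H858.Loc7 (Z)
open Cfsg.Agent.H825.JM (conj_word normalizer_EJ line_EJ)
open Cfsg.Agent.H860.JM Cfsg.Agent.H705.JM.BadData Cfsg.Agent.H705.JM.BadAbs
open Cfsg.Agent.H705.JM.BadBase

/-- the group `Spor.J4` -/
local notation "𝒢" => Cfsg.Spor.J4
/-- the group `2^11` -/
local notation "𝓔" => Cfsg.Agent.J4.Invol.EJ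

/-! ### General lemmas -/

theorem uniq4 (h4 : F4 geo) {t : 𝒢} {P P' : Subgroup 𝒢} (ht : geo.B t) (hP : geo.Pt P)
    (hP' : geo.Pt P') (h : t ∈ P) (h' : t ∈ P') : P = P' := by
  obtain ⟨Q, -, -, h1, -⟩ := h4 t ht
  rw [h1 P hP h, h1 P' hP' h']

theorem norm4 (h4 : F4 geo) {t y : 𝒢} {P : Subgroup 𝒢} (ht : geo.B t) (hP : geo.Pt P) (h : t ∈ P)
    (hy : y * t = t * y) : y ∈ Subgroup.normalizer (P : Set 𝒢) := by
  obtain ⟨Q, -, -, h1, h2⟩ := h4 t ht
  rw [h1 P hP h]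
  exact h2 (Subgroup.mem_centralizer_singleton_iff.2 hy)

/-- an element of order 5 normalizing a group of order 8 centralizes it -/
theorem fix5 {G : Type*} [Group G] [Finite G] {D : Subgroup G} (hD : Nat.card D = 8) {h : G}
    (h5 : h ^ 5 = 1) (hn : h ∈ Subgroup.normalizer (D : Set G)) : ∀ x ∈ D, h * x = x * h := by
  classical
  have : Fintype D := Fintype.ofFinite D
  let f : Function.End D := fun x => ⟨h * x * h⁻¹, (Subgroup.mem_normalizer_iff.1 hn x).1 x.2⟩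
  have hf : ∀ n : ℕ, ∀ x : D, ((f ^ n) x : G) = h ^ n * x * (h ^ n)⁻¹ := by
    intro n
    induction n with
    | zero =>
      intro x
      rw [pow_zero, pow_zero, one_mul, inv_one, mul_one]
      rfl
    | succ n ih =>
      intro x
      rw [pow_succ]
      show ((f ^ n) (f x) : G) = _
      rw [ih]
      show h ^ n * (h * x * h⁻¹) * (h ^ n)⁻¹ = _
      rw [pow_succ]
      group
  have h1 : f ^ 5 ^ 1 = 1 := by
    funext x
    apply Subtype.ext
    rw [pow_one, hf, h5, one_mul, inv_one, mul_one]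
    rfl
  have : Fact (Nat.Prime 5) := ⟨by norm_num⟩
  have h2 := Equiv.Perm.card_fixedPoints_modEq (f := f) (p := 5) (n := 1) h1
  set C : Subgroup D := (Subgroup.centralizer {h}).subgroupOf D with hC
  have h3 : Function.fixedPoints f = (C : Set D) := by
    ext x
    rw [SetLike.mem_coe, hC, Subgroup.mem_subgroupOf, Subgroup.mem_centralizer_singleton_iff]
    show f x = x ↔ _
    rw [Subtype.ext_iff]
    show h * x * h⁻¹ = x ↔ _
    rw [mul_inv_eq_iff_eq_mul]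
    exact eq_comm
  have h4 : Fintype.card (Function.fixedPoints f) = Nat.card C := by
    rw [← Nat.card_eq_fintype_card, h3]
    rfl
  have h6 : Nat.card C ∣ 8 := by
    rw [← hD]
    exact C.card_subgroup_dvd_card
  rw [h4, ← Nat.card_eq_fintype_card, hD] at h2
  have h7 : Nat.card C = 8 := by
    have h8 : Nat.card C ≤ 8 := Nat.le_of_dvd (by norm_num) h6
    generalize Nat.card C = n at h2 h6 h8
    interval_cases n <;> first | rfl | (exfalso; revert h2 h6; decide)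
  have h9 : C = ⊤ := by
    apply Subgroup.eq_top_of_card_eq
    rw [h7, hD]
  intro x hx
  have h10 : (⟨x, hx⟩ : D) ∈ C := by rw [h9]; trivial
  rw [hC, Subgroup.mem_subgroupOf, Subgroup.mem_centralizer_singleton_iff] at h10
  exact h10.symm

/-! ### Type 2 -/

theorem tabX : ((List.range 2048).all fun v => !(Nat.beq (lin Ax v) v) ||
    fix2.any fun t => Nat.beq (Nat.xor (Nat.xor (5 * (v % 2)) t.2.2) (lin Ax t.2.2)) v) =
    true := by decide +kernel

theorem X_red {v : ℕ} (hv : v < 2048) (hf : lin Ax v = v) :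
    ∃ r, v = 5 * (v % 2) ^^^ r ^^^ lin Ax r := by
  have h := tabX
  rw [List.all_eq_true] at h
  have h1 := h v (List.mem_range.2 hv)
  rw [hf, Nat.beq_refl, Bool.not_true, Bool.false_or, List.any_eq_true] at h1
  obtain ⟨t, -, h2⟩ := h1
  rw [Nat.beq_eq] at h2
  exact ⟨t.2.2, h2.symm⟩

theorem B_X : geo.B (phi XM) := by
  obtain ⟨g, h, -⟩ := repX
  rw [h]
  exact B_conj' B_d

theorem A_X : geo.A (V 5 * phi XM) := by
  obtain ⟨g, h⟩ := repXA
  rw [h]
  exact A_conj' A_s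

theorem X_even {v : ℕ} (hv : v < 2048) (hf : lin Ax v = v) (h : v % 2 = 0) :
    ∃ r, V v * phi XM = V r * phi XM * (V r)⁻¹ := by
  obtain ⟨r, hr⟩ := X_red hv hf
  rw [h, Nat.mul_zero] at hr
  refine ⟨r, ?_⟩
  conv_lhs => rw [hr]
  rw [conj_r actX', V_zero, one_mul]

theorem X_odd {v : ℕ} (hv : v < 2048) (hf : lin Ax v = v) (h : v % 2 = 1) :
    ∃ r, V v * phi XM = V r * (V 5 * phi XM) * (V r)⁻¹ := by
  obtain ⟨r, hr⟩ := X_red hv hf
  rw [h, Nat.mul_one] at hr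
  refine ⟨r, ?_⟩
  conv_lhs => rw [hr]
  rw [conj_r actX']

theorem X_A {v : ℕ} (hv : v < 2048) (hf : lin Ax v = v) (h : v % 2 = 1) :
    geo.A (V v * phi XM) := by
  obtain ⟨r, hr⟩ := X_odd hv hf h
  rw [hr]
  exact A_conj' A_X

theorem X_B {v : ℕ} (hv : v < 2048) (hf : lin Ax v = v) (h : v % 2 = 0) :
    geo.B (V v * phi XM) := by
  obtain ⟨r, hr⟩ := X_even hv hf h
  rw [hr]
  exact B_conj' B_X

theorem fixX {v : ℕ} (hv : v < 2048) (h : V v * phi XM * (V v * phi XM) = 1) : lin Ax v = v :=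
  fix_of_sq actX' Ax_lt phiX_sq hv h

theorem parity_A {v : ℕ} (hv : v < 2048) (h : geo.A (V v * phi XM)) :
    lin Ax v = v ∧ v % 2 = 1 := by
  have hf := fixX hv (A_sq h)
  refine ⟨hf, ?_⟩
  rcases Nat.mod_two_eq_zero_or_one v with h1 | h1
  · exact (not_AB h (X_B hv hf h1)).elim
  · exact h1

theorem parity_B {v : ℕ} (hv : v < 2048) (h : geo.B (V v * phi XM)) :
    lin Ax v = v ∧ v % 2 = 0 := by
  have hf := fixX hv (B_sq h)
  refine ⟨hf, ?_⟩
  rcases Nat.mod_two_eq_zero_or_one v with h1 | h1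
  · exact h1
  · exact (not_AB (X_A hv hf h1) h).elim

/-- a 2B element of type 2 is conjugate to `phi XM` by an element of the point -/
theorem X_norm {g : 𝒢} {v : ℕ} (hv : v < 2048) (h : geo.B (g * (V v * phi XM) * g⁻¹)) :
    ∃ k, cj k 𝓔 = cj g 𝓔 ∧ g * (V v * phi XM) * g⁻¹ = k * phi XM * k⁻¹ ∧
      ∀ e, k * V e * k⁻¹ = g * V e * g⁻¹ := by
  obtain ⟨hf, h0⟩ := parity_B hv (B_of_conj h)
  obtain ⟨r, hr⟩ := X_even hv hf h0
  refine ⟨g * V r, cj_V g r, ?_, conj_V_V g r⟩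
  rw [hr]
  group

theorem X20 (h4 : F4 geo) {g : 𝒢} {P : Subgroup 𝒢} (hP : geo.Pt P) (h : g * phi XM * g⁻¹ ∈ P) :
    g * V 20 * g⁻¹ ∈ P := by
  obtain ⟨k, h1, h2⟩ := repX
  have h3 : cj (g * k) 𝓔 = P := by
    refine uniq4 h4 (t := g * phi XM * g⁻¹) (B_conj' B_X) ⟨_, rfl⟩ hP ?_ h
    rw [h1]
    have e : g * (k * V 5 * k⁻¹) * g⁻¹ = g * k * V 5 * (g * k)⁻¹ := by group
    rw [e]
    exact mem_cj_V _ _
  rw [← h3]
  have e : g * V 20 * g⁻¹ = g * k * V 1739 * (g * k)⁻¹ := by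
    rw [← h2]; group
  rw [e]
  exact mem_cj_V _ _

theorem phiX_notMem : phi XM ∉ 𝓔 := by
  intro h
  exact B_ne B_X (Cfsg.Agent.H858.VK.inf_eq_one _ h ⟨_, rfl⟩)

theorem phi1_notMem : phi (el P1) ∉ 𝓔 := by
  intro h
  have h1 := Cfsg.Agent.H858.VK.inf_eq_one _ h ⟨_, rfl⟩
  obtain ⟨g, h2⟩ := rep1A
  rw [h1] at h2
  have h3 := A_conj' (g := g) A_s
  rw [← h2] at h3
  exact A_ne h3 rfl

/-- the word of an element of order 5 commuting with `XM` -/
def wh : List ℕ := [0, 1, 0, 2, 0, 1, 0, 1, 0, 2, 0, 1, 0, 1, 0, 1, 0, 1, 0, 2, 0, 2, 0, 2, 0, 2, 0,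
  1, 0, 1, 0, 2, 0, 1, 0, 1, 0, 2, 0, 1]

theorem wh_comm : wordG wh * XM = XM * wordG wh := by
  have h : wordG (wh ++ [0]) = wordG ([0] ++ wh) :=
    Cfsg.Agent.H858.M24Norm.wordG_eq (by decide +kernel)
  rw [Cfsg.Agent.H858.M24Norm.wordG_append, Cfsg.Agent.H858.M24Norm.wordG_append] at h
  exact h

theorem wh_five : wordG wh ^ 5 = 1 := by
  have h : wordG (wh ++ (wh ++ (wh ++ (wh ++ wh)))) = wordG [] :=
    Cfsg.Agent.H858.M24Norm.wordG_eq (by decide +kernel)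
  simp only [Cfsg.Agent.H858.M24Norm.wordG_append] at h
  have e : ∀ x : M24, x ^ 5 = x * (x * (x * (x * x))) := fun x => by
    simp only [pow_succ, pow_zero, one_mul, mul_assoc]
  rw [e, h]
  rfl

/-- the matrix of this element -/
def Mh : List ℕ := [161, 1638, 164, 1944, 176, 851, 545, 1369, 1173, 7, 13]

theorem Mh_eq : Cfsg.Agent.H858.VK.mat wh = Mh := by decide +kernel

theorem act_h (v : ℕ) : phi (wordG wh) * V v * (phi (wordG wh))⁻¹ = V (lin Mh v) := by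
  have h := Cfsg.Agent.H858.VK.isMat_word wh
  rw [Mh_eq] at h
  exact Cfsg.Agent.H858.Data.conj_V h v

theorem Mh_lt : ∀ v < 2048, lin Mh v < 2048 := fun v _ =>
  Cfsg.Agent.H858.VK.lin_lt (by decide +kernel) v

theorem fixh : ((List.range 2048).all fun v => !(Nat.beq (lin Ax v) v) ||
    !(Nat.beq (lin Mh v) v) || Nat.beq v 0 || Nat.beq v 20 || !(sx v)) = true := by
  decide +kernel

/-- the intersection of `2^11` and of the point of a 2B element of type 2 -/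
theorem X_upper (h4 : F4 geo) (h5 : F5 geo) (h6 : F6 geo) {g : 𝒢} {P : Subgroup 𝒢}
    (hP : geo.Pt P) (h : g * phi XM * g⁻¹ ∈ P) :
    ∀ x, x ∈ cj g 𝓔 ⊓ P ↔ x = 1 ∨ x = g * V 20 * g⁻¹ := by
  have h20 : g * V 20 * g⁻¹ ∈ cj g 𝓔 ⊓ P := ⟨mem_cj_V _ _, X20 h4 hP h⟩
  have h201 : g * V 20 * g⁻¹ ≠ 1 := A_ne (A_conj' (A_of_sx (by norm_num) (by norm_num)
    (by decide +kernel)))
  intro x
  constructor
  swap
  · rintro (rfl | rfl)
    · exact Subgroup.one_mem _
    · exact h20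
  intro hx
  by_cases hx1 : x = 1
  · exact Or.inl hx1
  have hne : cj g 𝓔 ≠ P := by
    intro h0
    rw [← h0, mem_cj] at h
    apply phiX_notMem
    have e : g⁻¹ * (g * phi XM * g⁻¹) * g = phi XM := by group
    rwa [e] at h
  rcases h5 _ P ⟨g, rfl⟩ hP hne with h0 | ⟨z, -, h0⟩ | h0
  · rw [h0, Subgroup.mem_bot] at hx
    exact absurd hx hx1
  · right
    rcases (h0 _).1 h20 with h1 | h1
    · exact absurd h1 h201
    · rcases (h0 x).1 hx with h2 | h2
      · exact absurd h2 hx1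
      · rw [h1, h2]
  · right
    set η := g * phi (wordG wh) * g⁻¹ with hη
    have hη5 : η ^ 5 = 1 := by
      rw [hη, conj_pow, ← map_pow, wh_five, map_one, mul_one, mul_inv_cancel]
    have hη1 : η ∈ Subgroup.normalizer (cj g 𝓔 : Set 𝒢) := by
      rw [normalizer_cj, mem_cj]
      have e : g⁻¹ * η * g = phi (wordG wh) := by rw [hη]; group
      rw [e]
      exact phi_norm ⟨_, rfl⟩
    have hη2 : η ∈ Subgroup.normalizer (P : Set 𝒢) := by
      refine norm4 h4 (B_conj' B_X) hP h ?_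
      rw [hη, conj_mul, conj_mul, ← map_mul, ← map_mul, wh_comm]
    have hη3 : η ∈ Subgroup.normalizer ((cj g 𝓔 ⊓ P : Subgroup 𝒢) : Set 𝒢) := by
      rw [Subgroup.mem_normalizer_iff]
      intro y
      rw [Subgroup.mem_inf, Subgroup.mem_inf]
      exact and_congr (Subgroup.mem_normalizer_iff.1 hη1 y) (Subgroup.mem_normalizer_iff.1 hη2 y)
    have h7 := fix5 (h6.card _ h0) hη5 hη3 x hx
    obtain ⟨q, hq, rfl⟩ := exists_V hx.1
    have h8 : V q * phi (wordG wh) = phi (wordG wh) * V q := by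
      rw [hη, conj_mul, conj_mul] at h7
      exact (conj_inj h7).symm
    have hq1 : lin Mh q = q := by
      refine (comm_iff (u := 0) act_h Mh_lt hq).1 ?_
      rw [V_zero, one_mul]
      exact h8
    have h9 : V q * phi XM = phi XM * V q := by
      have hcomm : g * V q * g⁻¹ * (g * phi XM * g⁻¹) = g * phi XM * g⁻¹ * (g * V q * g⁻¹) := by
        obtain ⟨k, rfl⟩ := hP
        exact Cfsg.Agent.H825.JM.pt_comm hx.2 h
      rw [conj_mul, conj_mul] at hcomm
      exact conj_inj hcomm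
    have hq2 : lin Ax q = q := by
      refine (comm_iff (u := 0) actX' Ax_lt hq).1 ?_
      rw [V_zero, one_mul]
      exact h9
    have h10 := fixh
    rw [List.all_eq_true] at h10
    have h11 := h10 q (List.mem_range.2 hq)
    rw [hq1, hq2, Nat.beq_refl, Bool.not_true, Bool.false_or, Bool.false_or, Bool.or_eq_true,
      Bool.or_eq_true, Nat.beq_eq, Nat.beq_eq] at h11
    have h12 : geo.A (V q) := A_of_conj (h6.pure _ h0 _ hx hx1)
    rcases h11 with (h11 | h11) | h11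
    · exact absurd h11 (sx_of_A hq h12).1
    · rw [h11]
    · rw [(sx_of_A hq h12).2] at h11
      exact absurd h11 (by decide)

/-! #### The line -/

theorem t_V {v : ℕ} (h : v ∈ Cfsg.Agent.H858.Data.zl) : (t : 𝒢) * V v * t = V v := by
  have h1 := Cfsg.Agent.H858.Data.sound.1
    (Cfsg.Agent.H858.Data.tu v, Cfsg.Agent.H858.Data.bb v) (by
      unfold Cfsg.Agent.H858.Data.eqsX Cfsg.Agent.H858.Data.eqsZ
      exact List.mem_append_left _ (List.mem_map.2 ⟨v, h, rfl⟩))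
  unfold Cfsg.Agent.H858.Data.tu at h1
  rw [Cfsg.Agent.H858.Data.evG_bb, Cfsg.Agent.Lib.F2MatGroup.evG_cons, evG_append,
    Cfsg.Agent.H858.Data.evG_bb, Cfsg.Agent.J4.Lower.evG_single] at h1
  rw [mul_assoc]
  exact h1

theorem t_inv : (t : 𝒢)⁻¹ = t := inv_eq_of_mul_eq_one_left t_sq

theorem line0 : TyA geo (V 20) (V 497 * phi XM) := by
  set c := phi (wordG cW) with hc
  set m := phi (wordG [1, 0, 2]) with hm
  have e1 : c * V 497 * c⁻¹ = V 1114 := by
    rw [hc, conj_word]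
    exact congrArg V (by decide +kernel)
  have e2 : c * V 20 * c⁻¹ = V 1394 := by
    rw [hc, conj_word]
    exact congrArg V (by decide +kernel)
  have e3 : m * V 1563 * m⁻¹ = V 296 := by
    rw [hm, conj_word]
    exact congrArg V (by decide +kernel)
  have e4 : m * V 1394 * m⁻¹ = V 1394 := by
    rw [hm, conj_word]
    exact congrArg V (by decide +kernel)
  have e5 : (t : 𝒢) * V 1394 * t = V 1394 := t_V (by decide)
  refine ⟨cj (c⁻¹ * t * m) Z, ⟨_, rfl⟩, ?_, ?_⟩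
  · rw [mem_cj]
    have e : (c⁻¹ * t * m)⁻¹ * V 20 * (c⁻¹ * t * m) = V 1394 := by
      calc (c⁻¹ * t * m)⁻¹ * V 20 * (c⁻¹ * t * m) = m⁻¹ * (t⁻¹ * (c * V 20 * c⁻¹) * t) * m := by
            group
        _ = m⁻¹ * V 1394 * m := by rw [e2, t_inv, e5]
        _ = m⁻¹ * (m * V 1394 * m⁻¹) * m := by rw [e4]
        _ = V 1394 := by group
    rw [e]
    exact Cfsg.Agent.H858.Loc7.V_mem_Z 4 (by decide)
  · rw [mem_cj]
    have e : (c⁻¹ * t * m)⁻¹ * (V 497 * phi XM) * (c⁻¹ * t * m) = V 1563 := by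
      calc (c⁻¹ * t * m)⁻¹ * (V 497 * phi XM) * (c⁻¹ * t * m) =
            m⁻¹ * (t⁻¹ * ((c * V 497 * c⁻¹) * (c * phi XM * c⁻¹)) * t) * m := by
            group
        _ = m⁻¹ * (t * (t * V 296 * t) * t) * m := by rw [e1, t_inv, line_eq]
        _ = m⁻¹ * ((t * t) * V 296 * (t * t)) * m := by group
        _ = m⁻¹ * (m * V 1563 * m⁻¹) * m := by rw [t_sq, one_mul, mul_one, e3]
        _ = V 1563 := by group
    rw [e]
    exact Cfsg.Agent.H858.Loc7.V_mem_Z 6 (by decide)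

theorem X_line {g : 𝒢} {v : ℕ} (hv : v < 2048) (hf : lin Ax v = v) (h : v % 2 = 1) :
    TyA geo (g * V 20 * g⁻¹) (g * (V v * phi XM) * g⁻¹) := by
  obtain ⟨r, hr⟩ := X_odd hv hf h
  obtain ⟨r', hr'⟩ := X_odd (v := 497) (by norm_num) (by decide +kernel) (by norm_num)
  have h1 := tyA_conj (g * V r * V r') line0
  have e1 : g * V r * V r' * V 20 * (g * V r * V r')⁻¹ = g * V 20 * g⁻¹ := by
    rw [conj_V_V, conj_V_V]
  have e2 : g * V r * V r' * (V 497 * phi XM) * (g * V r * V r')⁻¹ =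
      g * (V v * phi XM) * g⁻¹ := by
    rw [hr, hr']
    calc g * V r * V r' * (V r' * (V 5 * phi XM) * (V r')⁻¹) * (g * V r * V r')⁻¹ =
          g * V r * (V r' * V r') * (V 5 * phi XM) * (V r' * V r')⁻¹ * (V r)⁻¹ * g⁻¹ := by group
      _ = _ := by rw [V_sq]; group
  rw [e1, e2] at h1
  exact h1

/-! ### Type 1 -/

/-- the coordinates modulo `[V, σ]` -/
def KK : List ℕ := [0, 0, 0, 0, 0, 4, 4, 4, 0, 2, 1]
/-- the functional `s` -/
def SS : List ℕ := [0, 1, 1, 1, 0, 0, 0, 1, 0, 0, 0]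
/-- the representatives -/
def rp (k : ℕ) : ℕ := [0, 1047, 517, 1554, 34, 1077, 551, 1584].getD k 0
/-- the labels in the point -/
def fano (k : ℕ) : List ℕ := [[], [206, 262, 456], [119, 447, 456], [185, 369, 456],
  [119, 262, 369], [185, 262, 447], [119, 185, 206], [206, 369, 447]].getD k []
/-- the group `F` -/
def F8 : List ℕ := [0, 119, 185, 206, 262, 369, 447, 456]

theorem tab1 : ((List.range 2048).all fun v => !(Nat.beq (lin A1 v) v) ||
    (Nat.blt (lin KK v) 8 && fix1.any fun t => Nat.beq t.1 v &&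
      Nat.beq (Nat.xor (Nat.xor (rp (lin KK v)) t.2.2) (lin A1 t.2.2)) v)) = true := by
  decide +kernel

theorem one_red {v : ℕ} (hv : v < 2048) (hf : lin A1 v = v) :
    lin KK v < 8 ∧ ∃ r, v = rp (lin KK v) ^^^ r ^^^ lin A1 r := by
  have h := tab1
  rw [List.all_eq_true] at h
  have h1 := h v (List.mem_range.2 hv)
  rw [hf, Nat.beq_refl, Bool.not_true, Bool.false_or, Bool.and_eq_true, Nat.blt_eq,
    List.any_eq_true] at h1
  obtain ⟨h0, t, -, h2⟩ := h1
  rw [Bool.and_eq_true, Nat.beq_eq, Nat.beq_eq] at h2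
  exact ⟨h0, t.2.2, h2.2.symm⟩

theorem fano_row : ((List.range 8).all fun k => Nat.beq k 0 || repsB.any fun r =>
    Nat.beq r.1 (rp k) && repOkB Cfsg.Agent.J4.ClassesData.eqsC eqsB 41 40 r &&
      (fano k).all fun e => r.2.2.2.2.2.any fun p => Nat.beq p.1 e) = true := by decide +kernel

theorem rep1 {k : ℕ} (hk : k < 8) (h0 : k ≠ 0) : ∃ g : 𝒢, V (rp k) * phi (el P1) = g * V 5 * g⁻¹ ∧
    ∀ e ∈ fano k, ∃ b, g⁻¹ * V e * g = V b := by
  have h := fano_row
  rw [List.all_eq_true] at h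
  have h1 := h k (List.mem_range.2 hk)
  rw [Bool.or_eq_true, Nat.beq_eq, List.any_eq_true] at h1
  rcases h1 with h1 | ⟨r, -, h1⟩
  · exact absurd h1 h0
  · rw [Bool.and_eq_true, Bool.and_eq_true, Nat.beq_eq, List.all_eq_true] at h1
    obtain ⟨⟨h1, h2⟩, h3⟩ := h1
    obtain ⟨g, h4, h5⟩ := rep_sound h2
    refine ⟨g, ?_, ?_⟩
    · rw [h1, getG41, getG40] at h4
      exact h4
    · intro e he
      have h6 := h3 e he
      rw [List.any_eq_true] at h6
      obtain ⟨p, hp, h7⟩ := h6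
      rw [Nat.beq_eq] at h7
      exact ⟨p.2, by rw [← h7]; exact h5 p hp⟩

theorem A_1 : geo.A (phi (el P1)) := by
  obtain ⟨g, h⟩ := rep1A
  rw [h]
  exact A_conj' A_s

theorem one_A {v : ℕ} (hv : v < 2048) (hf : lin A1 v = v) (h : lin KK v = 0) :
    geo.A (V v * phi (el P1)) := by
  obtain ⟨-, r, hr⟩ := one_red hv hf
  rw [h] at hr
  rw [hr, conj_r act1']
  apply A_conj'
  show geo.A (V 0 * _)
  rw [V_zero, one_mul]
  exact A_1

theorem one_B {v : ℕ} (hv : v < 2048) (hf : lin A1 v = v) (h : lin KK v ≠ 0) :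
    geo.B (V v * phi (el P1)) := by
  obtain ⟨h8, r, hr⟩ := one_red hv hf
  obtain ⟨g, h1, -⟩ := rep1 h8 h
  generalize lin KK v = k at hr h1
  rw [hr, conj_r act1', h1]
  exact B_conj' (B_conj' B_d)

theorem fix1' {v : ℕ} (hv : v < 2048) (h : V v * phi (el P1) * (V v * phi (el P1)) = 1) :
    lin A1 v = v :=
  fix_of_sq act1' A1_lt phi1_sq hv h

theorem kap_A {v : ℕ} (hv : v < 2048) (h : geo.A (V v * phi (el P1))) :
    lin A1 v = v ∧ lin KK v = 0 := by
  have hf := fix1' hv (A_sq h)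
  refine ⟨hf, ?_⟩
  by_contra h1
  exact not_AB h (one_B hv hf h1)

theorem kap_B {v : ℕ} (hv : v < 2048) (h : geo.B (V v * phi (el P1))) :
    lin A1 v = v ∧ lin KK v ≠ 0 ∧ lin KK v < 8 := by
  have hf := fix1' hv (B_sq h)
  exact ⟨hf, fun h1 => not_AB (one_A hv hf h1) h, (one_red hv hf).1⟩

/-- elements in the point of a 2B element of type 1 -/
theorem one_pts (h4 : F4 geo) {g : 𝒢} {v : ℕ} {P : Subgroup 𝒢} (hv : v < 2048)
    (hB : geo.B (g * (V v * phi (el P1)) * g⁻¹)) (hP : geo.Pt P)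
    (h : g * (V v * phi (el P1)) * g⁻¹ ∈ P) : ∀ e ∈ fano (lin KK v), g * V e * g⁻¹ ∈ P := by
  obtain ⟨hf, h0, h8⟩ := kap_B hv (B_of_conj hB)
  obtain ⟨-, r, hr⟩ := one_red hv hf
  obtain ⟨k, h1, h2⟩ := rep1 h8 h0
  have h3 : g * (V v * phi (el P1)) * g⁻¹ = g * V r * k * V 5 * (g * V r * k)⁻¹ := by
    have e : V v * phi (el P1) = V r * (V (rp (lin KK v)) * phi (el P1)) * (V r)⁻¹ := by
      conv_lhs => rw [hr]
      rw [conj_r act1']
    rw [e, h1]
    group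
  have h5 : cj (g * V r * k) 𝓔 = P := by
    refine uniq4 h4 hB ⟨_, rfl⟩ hP ?_ h
    rw [h3]
    exact mem_cj_V _ _
  intro e he
  obtain ⟨b, hb⟩ := h2 e he
  rw [← h5]
  have e1 : g * V e * g⁻¹ = g * V r * k * V b * (g * V r * k)⁻¹ := by
    rw [← conj_V_V g r e, ← hb]
    group
  rw [e1]
  exact mem_cj_V _ _

end Cfsg.Agent.H705.JM.BadFacts
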